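import Mathlib
import Cfsg.Prelude.Def_KGroupFacts
import Cfsg.Agent.Lib.AutSyl.Main

/-!
# Solvability of `Out(G)`: the Frattini argument in `Aut(G)`

`stabAut X` is the stabilizer of `X` in `Aut(G)`, `restr X` the restriction to `X`, and
`fixAut X` the pointwise stabilizer.  Every coset of `Inn(G)` meets `stabAut S` for a Sylow
subgroup `S`.
-/

set_option autoImplicit false
set_option linter.all false

namespace Cfsg.Agent.Lib.OutSolv.Base

open Cfsg Pointwise

universe u v w

/-- The odd order theorem in the universe `u`. -/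
def FT : Prop := ∀ (X : Type u) [Group X] [Finite X], Odd (Nat.card X) → Group.IsSolvable X

section general

theorem solvable_of_two {W : Type*} {Γ : Type*} {M : Type*} [Group W] [Group Γ] [Group M]
    (π : W →* Γ) (hπ : Function.Surjective π) (ρ : W →* M)
    (h1 : Group.IsSolvable ρ.range) (h2 : Group.IsSolvable (ρ.ker.map π)) : Group.IsSolvable Γ := by
  haveI hD : (ρ.ker.map π).Normal := Subgroup.Normal.map inferInstance π hπ
  let ψ : W →* Γ ⧸ ρ.ker.map π := (QuotientGroup.mk' _).comp π
  have hψ : Function.Surjective ψ := (QuotientGroup.mk'_surjective _).comp hπ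
  have hker : ρ.ker ≤ ψ.ker := by
    intro x hx
    show ψ x = 1
    exact (QuotientGroup.eq_one_iff _).2 ⟨x, hx, rfl⟩
  let l : W ⧸ ρ.ker →* Γ ⧸ ρ.ker.map π := QuotientGroup.lift _ ψ hker
  have hl : Function.Surjective l := by
    intro q
    obtain ⟨x, rfl⟩ := hψ q
    exact ⟨(x : W ⧸ ρ.ker), rfl⟩
  haveI : Group.IsSolvable (W ⧸ ρ.ker) :=
    solvable_of_solvable_injective (f := (QuotientGroup.quotientKerEquivRange ρ).toMonoidHom)
      (QuotientGroup.quotientKerEquivRange ρ).injective
  haveI : Group.IsSolvable (Γ ⧸ ρ.ker.map π) := Group.isSolvable_of_surjective (f := l) hl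
  refine Group.isSolvable_of_ker_le_range (ρ.ker.map π).subtype (QuotientGroup.mk' (ρ.ker.map π)) ?_
  intro x hx
  have h3 : x ∈ ρ.ker.map π := (QuotientGroup.eq_one_iff x).1 hx
  exact ⟨⟨x, h3⟩, rfl⟩

theorem solvable_of_normal {Γ : Type*} [Group Γ] (D : Subgroup Γ) [hD : D.Normal]
    (h1 : Group.IsSolvable D) (h2 : Group.IsSolvable (Γ ⧸ D)) : Group.IsSolvable Γ := by
  refine Group.isSolvable_of_ker_le_range D.subtype (QuotientGroup.mk' D) ?_
  intro x hx
  have h3 : x ∈ D := (QuotientGroup.eq_one_iff x).1 hx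
  exact ⟨⟨x, h3⟩, rfl⟩

end general

section aut

variable {G : Type u} [Group G]

/-- The stabilizer of `X` in `Aut(G)`. -/
def stabAut (X : Subgroup G) : Subgroup (MulAut G) where
  carrier := {φ | ∀ x, φ x ∈ X ↔ x ∈ X}
  mul_mem' := by
    intro a b ha hb x
    show a (b x) ∈ X ↔ x ∈ X
    rw [ha, hb]
  one_mem' := fun x => Iff.rfl
  inv_mem' := by
    intro a ha x
    rw [← ha (a⁻¹ x)]
    simp

theorem mem_stabAut {X : Subgroup G} {φ : MulAut G} : φ ∈ stabAut X ↔ ∀ x, φ x ∈ X ↔ x ∈ X := Iff.rfl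

/-- The pointwise stabilizer of `X` in `Aut(G)`. -/
def fixAut (X : Subgroup G) : Subgroup (MulAut G) where
  carrier := {φ | ∀ x ∈ X, φ x = x}
  mul_mem' := by
    intro a b ha hb x hx
    show a (b x) = x
    rw [hb x hx, ha x hx]
  one_mem' := fun x _ => rfl
  inv_mem' := by
    intro a ha x hx
    have h : a x = x := ha x hx
    show a.symm x = x
    rw [MulEquiv.symm_apply_eq]
    exact h.symm

theorem mem_fixAut {X : Subgroup G} {φ : MulAut G} : φ ∈ fixAut X ↔ ∀ x ∈ X, φ x = x := Iff.rfl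

theorem fixAut_le_stabAut [Finite G] (X : Subgroup G) : fixAut X ≤ stabAut X := by
  intro φ hφ x
  constructor
  · intro h
    have h1 := hφ _ h
    have h2 : φ x = φ (φ x) := h1.symm
    have h3 : x = φ x := φ.injective h2
    rwa [h3]
  · intro h
    rw [hφ x h]
    exact h

/-- Restriction to an invariant subgroup. -/
def restr (X : Subgroup G) : stabAut X →* MulAut X where
  toFun φ :=
    { toFun := fun x => ⟨φ.1 x, (φ.2 x).2 x.2⟩
      invFun := fun x => ⟨φ.1⁻¹ x, ((stabAut X).inv_mem φ.2 (x : G)).2 x.2⟩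
      left_inv := fun x => by ext; simp
      right_inv := fun x => by ext; simp
      map_mul' := fun x y => by ext; simp }
  map_one' := by ext; rfl
  map_mul' := fun a b => by ext; rfl


@[simp] theorem restr_apply (X : Subgroup G) (φ : stabAut X) (x : X) :
    ((restr X φ x : X) : G) = φ.1 x := rfl

theorem mem_ker_restr {X : Subgroup G} {φ : stabAut X} : φ ∈ (restr X).ker ↔ φ.1 ∈ fixAut X := by
  rw [MonoidHom.mem_ker]
  constructor
  · intro h x hx
    have h1 : restr X φ ⟨x, hx⟩ = ⟨x, hx⟩ := by rw [h]; rfl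
    exact congrArg Subtype.val h1
  · intro h
    ext x
    exact h x x.2

theorem conj_mem_inn (g : G) : MulAut.conj g ∈ Inn G := ⟨g, rfl⟩

/-- The map from a subgroup of `Aut(G)` to `Out(G)`. -/
def piOf (W : Subgroup (MulAut G)) : W →* Out G := (QuotientGroup.mk' (Inn G)).comp W.subtype

theorem piOf_apply {W : Subgroup (MulAut G)} (x : W) : piOf W x = ((x : MulAut G) : Out G) := rfl

/-- A subgroup meeting each coset of `Inn(G)` surjects on `Out(G)`. -/
theorem piOf_surjective {W : Subgroup (MulAut G)}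
    (h : ∀ φ : MulAut G, ∃ g : G, (MulAut.conj g)⁻¹ * φ ∈ W) : Function.Surjective (piOf W) := by
  intro q
  obtain ⟨φ, rfl⟩ := QuotientGroup.mk_surjective q
  obtain ⟨g, hg⟩ := h φ
  refine ⟨⟨_, hg⟩, ?_⟩
  rw [piOf_apply]
  show (((MulAut.conj g)⁻¹ * φ : MulAut G) : Out G) = φ
  rw [QuotientGroup.eq]
  have : ((MulAut.conj g)⁻¹ * φ)⁻¹ * φ = φ⁻¹ * MulAut.conj g * φ := by group
  rw [this]
  have h2 := (innNormal G).conj_mem _ (conj_mem_inn g) φ⁻¹
  simpa using h2

variable [Finite G]

/-- The Frattini argument in `Aut(G)` for a Sylow subgroup. -/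
theorem exists_conj_stab {p : ℕ} [Fact p.Prime] (S : Sylow p G) (φ : MulAut G) :
    ∃ g : G, (MulAut.conj g)⁻¹ * φ ∈ stabAut (S : Subgroup G) := by
  obtain ⟨g, hg⟩ := MulAction.exists_smul_eq G S (φ • S)
  refine ⟨g, fun x => ?_⟩
  have h1 : x ∈ (S : Subgroup G) ↔ φ x ∈ ((φ • S : Sylow p G) : Subgroup G) := by
    rw [Sylow.pointwise_smul_def, Subgroup.mem_pointwise_smul_iff_inv_smul_mem]
    simp
  rw [h1, ← hg, Sylow.smul_def, Sylow.pointwise_smul_def, Subgroup.mem_pointwise_smul_iff_inv_smul_mem]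
  simp [MulAut.mul_apply]

/-- A simple non-abelian group of even order has no nontrivial normal subgroup of odd order. -/
theorem no_odd_normal [IsSimpleGroup G] (S : Sylow 2 G) (hS1 : (S : Subgroup G) ≠ ⊥)
    (N : Subgroup G) (hN : N.Normal) (hodd : Odd (Nat.card N)) : N = ⊥ := by
  rcases hN.eq_bot_or_eq_top with h | h
  · exact h
  · exfalso
    rw [h, Subgroup.card_top] at hodd
    haveI : Fact (Nat.Prime 2) := ⟨Nat.prime_two⟩
    obtain ⟨n, hn⟩ := IsPGroup.iff_card.1 S.isPGroup'
    have h1 : Nat.card (S : Subgroup G) ∣ Nat.card G := Subgroup.card_subgroup_dvd_card _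
    have hn0 : n ≠ 0 := by
      rintro rfl
      apply hS1
      exact Subgroup.card_eq_one.mp (by simpa using hn)
    have h2 : 2 ∣ Nat.card G := by
      refine dvd_trans ?_ h1
      rw [hn]
      exact dvd_pow_self 2 hn0
    exact (Nat.not_even_iff_odd.2 hodd) (even_iff_two_dvd.2 h2)

/-- The automorphisms fixing a Sylow `2`-subgroup pointwise are solvable, if `O(G) = 1`. -/
theorem fixAut_solvable (hFT : FT.{u}) 
    (hO : ∀ N : Subgroup G, N.Normal → Odd (Nat.card N) → N = ⊥) (S : Sylow 2 G) :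
    Group.IsSolvable (fixAut (S : Subgroup G)) := by
  obtain ⟨N, hn, hodd, hcomm, v, hp⟩ := Cfsg.Agent.Lib.AutSyl.Main.exists_kernel hO S
    (fixAut (S : Subgroup G)) (fun φ => Iff.rfl)
  refine Cfsg.Agent.Lib.AutSyl.Main.solvable_part N hn hcomm ?_
  haveI : Finite (MulAut G) := Finite.of_injective (fun φ : MulAut G => (φ : G → G)) DFunLike.coe_injective
  exact hFT _ hodd

/-- The kernel of restriction is solvable. -/
theorem ker_restr_solvable (S : Subgroup G) (h : Group.IsSolvable (fixAut S)) :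
    Group.IsSolvable (restr S).ker := by
  let f : (restr S).ker →* fixAut S :=
    { toFun := fun x => ⟨x.1.1, mem_ker_restr.1 x.2⟩
      map_one' := rfl
      map_mul' := fun _ _ => rfl }
  refine solvable_of_solvable_injective (f := f) ?_
  intro x y hxy
  have h1 : (x.1.1 : MulAut G) = y.1.1 := congrArg (fun z : fixAut S => (z : MulAut G)) hxy
  exact Subtype.ext (Subtype.ext h1)

theorem map_solvable {W Γ : Type*} [Group W] [Group Γ] (π : W →* Γ) (K : Subgroup W)
    (h : Group.IsSolvable K) : Group.IsSolvable (K.map π) :=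
  Group.isSolvable_of_surjective (f := π.subgroupMap K) (π.subgroupMap_surjective K)

/-- **S3065** in lib form. -/
theorem main_aut (hFT : FT.{u}) [IsSimpleGroup G] (S : Sylow 2 G) (hS1 : (S : Subgroup G) ≠ ⊥)
    (hS : Group.IsSolvable (MulAut ↥S)) : Group.IsSolvable (Out G) := by
  have hO := no_odd_normal S hS1
  have hF := fixAut_solvable hFT hO S
  refine solvable_of_two (piOf (stabAut (S : Subgroup G)))
    (piOf_surjective (exists_conj_stab S)) (restr (S : Subgroup G)) ?_
    (map_solvable _ _ (ker_restr_solvable _ hF))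
  exact solvable_of_solvable_injective (f := (restr (S : Subgroup G)).range.subtype)
    Subtype.val_injective

end aut

end Cfsg.Agent.Lib.OutSolv.Base
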