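import Mathlib
import Cfsg.Agent.Lib.OutSolv.Base
import Cfsg.Agent.Lib.FG7.BurnsideBasis
import Cfsg.Agent.Lib.PGroups.Basic
import Cfsg.Agent.Lib.Char.Burnside
import Cfsg.Agent.Lib.CharDeep.PartBound.Chief

/-!
# `Out(G)` through the action on the Frattini quotient of a Sylow `2`-subgroup
-/

set_option autoImplicit false
set_option linter.all false

namespace Cfsg.Agent.Lib.OutSolv.Frat

open Cfsg Pointwise Cfsg.Agent.Lib.OutSolv.Base
open scoped commutatorElement

universe u

section act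

variable (P : Type u) [Group P]

/-- The action of `Aut(P)` on the Frattini quotient. -/
noncomputable def frattAct : MulAut P →* MulAut (P ⧸ frattini P) where
  toFun φ := QuotientGroup.congr (frattini P) (frattini P) φ
    (Subgroup.characteristic_iff_map_eq.mp inferInstance φ)
  map_one' := by
    ext q
    obtain ⟨x, rfl⟩ := QuotientGroup.mk_surjective q
    rfl
  map_mul' := fun a b => by
    ext q
    obtain ⟨x, rfl⟩ := QuotientGroup.mk_surjective q
    rfl

variable {P}

theorem frattAct_mk (φ : MulAut P) (x : P) :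
    frattAct P φ (x : P ⧸ frattini P) = ((φ x : P) : P ⧸ frattini P) := rfl

theorem mem_ker_frattAct {φ : MulAut P} :
    φ ∈ (frattAct P).ker ↔ ∀ x : P, φ x * x⁻¹ ∈ frattini P := by
  rw [MonoidHom.mem_ker]
  constructor
  · intro h x
    have h1 := DFunLike.congr_fun h (x : P ⧸ frattini P)
    rw [frattAct_mk] at h1
    have h2 : ((φ x : P) : P ⧸ frattini P) = (x : P ⧸ frattini P) := h1
    rw [QuotientGroup.eq] at h2
    have h3 := (inferInstance : (frattini P).Normal).conj_mem _ ((frattini P).inv_mem h2) x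
    simpa [mul_assoc] using h3
  · intro h
    ext q
    obtain ⟨x, rfl⟩ := QuotientGroup.mk_surjective q
    rw [frattAct_mk]
    show ((φ x : P) : P ⧸ frattini P) = (x : P ⧸ frattini P)
    rw [QuotientGroup.eq]
    have h3 := (inferInstance : (frattini P).Normal).conj_mem _ ((frattini P).inv_mem (h x)) x⁻¹
    simpa [mul_assoc] using h3

variable [Finite P]

theorem frat_quot_comm (hP : IsPGroup 2 P) (x y : P ⧸ frattini P) : x * y = y * x := by
  haveI : Fact (Nat.Prime 2) := ⟨Nat.prime_two⟩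
  obtain ⟨x, rfl⟩ := QuotientGroup.mk_surjective x
  obtain ⟨y, rfl⟩ := QuotientGroup.mk_surjective y
  show ((x * y : P) : P ⧸ frattini P) = ((y * x : P) : P ⧸ frattini P)
  rw [QuotientGroup.eq]
  have h3 : (x * y)⁻¹ * (y * x) = y⁻¹ * x⁻¹ * y⁻¹⁻¹ * x⁻¹⁻¹ := by group
  rw [h3]
  have h6 : ⁅y⁻¹, x⁻¹⁆ ∈ commutator P := by
    rw [commutator_eq_closure]
    exact Subgroup.subset_closure ⟨y⁻¹, x⁻¹, rfl⟩
  have h7 := Cfsg.Agent.Lib.PGroups.Basic.commutator_le_frattini hP h6
  rw [commutatorElement_def] at h7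
  exact h7

theorem frat_quot_sq (hP : IsPGroup 2 P) (x : P ⧸ frattini P) : x ^ 2 = 1 := by
  haveI : Fact (Nat.Prime 2) := ⟨Nat.prime_two⟩
  obtain ⟨x, rfl⟩ := QuotientGroup.mk_surjective x
  rw [← QuotientGroup.mk_pow, QuotientGroup.eq_one_iff]
  exact Cfsg.Agent.Lib.PGroups.Basic.pow_mem_frattini hP x

theorem ker_frattAct_pGroup (hP : IsPGroup 2 P) : IsPGroup 2 (frattAct P).ker := by
  haveI : Fact (Nat.Prime 2) := ⟨Nat.prime_two⟩
  obtain ⟨n, hn⟩ := IsPGroup.iff_card.1 hP
  have hV : IsPGroup 2 (P ⧸ frattini P) := IsPGroup.to_quotient hP _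
  obtain ⟨r, hr⟩ := IsPGroup.iff_card.1 hV
  have hr' : (frattini P).index = 2 ^ r := hr
  have h1 := Cfsg.Agent.Lib.FG7.BurnsideBasis.card_dvd (p := 2) hn hr' (frattAct P).ker
    (fun α hα x => mem_ker_frattAct.1 hα x)
  obtain ⟨k, -, hk⟩ := (Nat.dvd_prime_pow Nat.prime_two).1 h1
  exact IsPGroup.of_card hk

/-- A commutative group of exponent `2` generated by a finite set of size `k` has at most `2^k`
elements. -/
theorem card_closure_le {V : Type*} [Group V] [Finite V] (hc : ∀ x y : V, x * y = y * x)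
    (h2 : ∀ x : V, x ^ 2 = 1) (s : Finset V) :
    Nat.card (Subgroup.closure (s : Set V)) ≤ 2 ^ s.card := by
  classical
  letI : CommGroup V := { ‹Group V› with mul_comm := hc }
  induction s using Finset.induction_on with
  | empty => simp
  | insert x s hx ih =>
    rw [Finset.card_insert_of_notMem hx, pow_succ, Finset.coe_insert]
    have h3 : Subgroup.closure (insert x (s : Set V)) =
        Subgroup.zpowers x ⊔ Subgroup.closure (s : Set V) := by
      rw [Set.insert_eq, Subgroup.closure_union, Subgroup.zpowers_eq_closure]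
    rw [h3]
    let F : Subgroup.closure (s : Set V) × Subgroup.zpowers x →
        ↥(Subgroup.zpowers x ⊔ Subgroup.closure (s : Set V)) := fun a =>
      ⟨(a.2 : V) * a.1, Subgroup.mul_mem_sup a.2.2 a.1.2⟩
    have hF : Function.Surjective F := by
      rintro ⟨y, hy⟩
      obtain ⟨z, hz, w, hw, rfl⟩ := Subgroup.mem_sup.1 hy
      exact ⟨(⟨w, hw⟩, ⟨z, hz⟩), rfl⟩
    have h4 := Nat.card_le_card_of_surjective F hF
    rw [Nat.card_prod] at h4
    refine h4.trans (Nat.mul_le_mul ih ?_)
    rw [Nat.card_zpowers]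
    exact orderOf_le_of_pow_eq_one (by norm_num) (h2 x)

end act

section main

variable {G : Type u} [Group G] [Finite G]

/-- The action of the stabilizer of `S` on the Frattini quotient of `S`. -/
noncomputable def fHom (S : Subgroup G) :
    stabAut S →* MulAut (↥S ⧸ frattini ↥S) :=
  (frattAct ↥S).comp (restr S)

theorem ker_fHom_solvable (S : Subgroup G) (hS : IsPGroup 2 S) (h : Group.IsSolvable (fixAut S)) :
    Group.IsSolvable (fHom S).ker := by
  haveI hk := ker_restr_solvable S h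
  haveI hp : Group.IsSolvable (frattAct ↥S).ker := by
    haveI : Fact (Nat.Prime 2) := ⟨Nat.prime_two⟩
    haveI := (ker_frattAct_pGroup hS).isNilpotent
    infer_instance
  let g : (fHom S).ker →* (frattAct ↥S).ker :=
    { toFun := fun x => ⟨restr S x.1, x.2⟩
      map_one' := rfl
      map_mul' := fun _ _ => rfl }
  let f : (restr S).ker →* (fHom S).ker :=
    { toFun := fun x => ⟨x.1, by
        show frattAct ↥S (restr S x.1) = 1
        rw [x.2, map_one]⟩
      map_one' := rfl
      map_mul' := fun _ _ => rfl }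
  refine Group.isSolvable_of_ker_le_range f g ?_
  intro x hx
  have h1 : restr S x.1 = 1 := congrArg Subtype.val hx
  exact ⟨⟨x.1, h1⟩, rfl⟩

theorem card_eq_relIndex_mul {X : Type*} [Group X] {H K : Subgroup X} (h : H ≤ K) :
    H.relIndex K * Nat.card H = Nat.card K := by
  have h3 := Subgroup.card_mul_index (H.subgroupOf K)
  rw [Nat.card_congr (Subgroup.subgroupOfEquivOfLe h).toEquiv] at h3
  rw [Subgroup.relIndex, mul_comm]
  exact h3

/-- The numerical criterion. -/
theorem out_solvable_of_dvd (S : Sylow 2 G) (hF : Group.IsSolvable (fixAut (S : Subgroup G)))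
    (h : ∀ d : ℕ, d * Nat.card ((piOf (stabAut (S : Subgroup G))).ker.map (fHom (S : Subgroup G))) =
        Nat.card (fHom (S : Subgroup G)).range →
      ∃ p q a b : ℕ, p.Prime ∧ q.Prime ∧ d ∣ p ^ a * q ^ b) : Group.IsSolvable (Out G) := by
  classical
  set f := fHom (S : Subgroup G) with hf
  set π := piOf (stabAut (S : Subgroup G)) with hπdef
  have hπ : Function.Surjective π := piOf_surjective (exists_conj_stab S)
  haveI hK1 : Group.IsSolvable f.ker := ker_fHom_solvable _ S.isPGroup' hF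
  haveI hDn : (f.ker.map π).Normal := Subgroup.Normal.map inferInstance π hπ
  refine solvable_of_normal (f.ker.map π) (map_solvable _ _ hK1) ?_
  let ψ : stabAut (S : Subgroup G) →* Out G ⧸ f.ker.map π := (QuotientGroup.mk' _).comp π
  have hψ : Function.Surjective ψ := (QuotientGroup.mk'_surjective _).comp hπ
  let X := π.ker
  let L₀ := X.map f
  have hT : L₀.comap f ≤ ψ.ker := by
    intro t ht
    obtain ⟨x, hx, hxt⟩ := ht
    have h1 : x⁻¹ * t ∈ f.ker := by
      rw [MonoidHom.mem_ker, map_mul, map_inv, hxt, inv_mul_cancel]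
    have h2 : π t = π (x⁻¹ * t) := by
      have hx1 : π x = 1 := hx
      rw [map_mul, map_inv, hx1, inv_one, one_mul]
    show ψ t = 1
    refine (QuotientGroup.eq_one_iff _).2 ?_
    rw [h2]
    exact ⟨_, h1, rfl⟩
  have hc1 : Nat.card (Out G ⧸ f.ker.map π) = ψ.ker.index := by
    rw [Subgroup.index_ker, MonoidHom.range_eq_top.2 hψ, Subgroup.card_top]
  have hc2 : ψ.ker.index ∣ (L₀.comap f).index := Subgroup.index_dvd_of_le hT
  have hc3 : (L₀.comap f).index = L₀.relIndex f.range := Subgroup.index_comap _ _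
  have hc4 : L₀.relIndex f.range * Nat.card L₀ = Nat.card f.range :=
    card_eq_relIndex_mul (by rintro _ ⟨x, _, rfl⟩; exact ⟨x, rfl⟩)
  obtain ⟨p, q, a, b, hp, hq, hd⟩ := h _ hc4
  have hc5 : Nat.card (Out G ⧸ f.ker.map π) ∣ p ^ a * q ^ b := by
    rw [hc1]
    exact hc2.trans (hc3 ▸ hd)
  obtain ⟨a', b', hab⟩ := Cfsg.Agent.Lib.Char.Burnside.exists_eq_pow_mul_pow_of_dvd hp hq hc5
  haveI : Finite (Out G) := inferInstance
  exact Cfsg.Agent.Lib.Char.Burnside.isSolvable_of_card_eq p q a' b' hp hq hab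

/-- The order of the automorphism group of the Frattini quotient. -/
theorem card_aut_frat (S : Sylow 2 G) {r : ℕ}
    (hr : Nat.card (↥(S : Subgroup G) ⧸ frattini ↥(S : Subgroup G)) = 2 ^ r) :
    Nat.card (MulAut (↥(S : Subgroup G) ⧸ frattini ↥(S : Subgroup G))) =
      ∏ i : Fin r, (2 ^ r - 2 ^ (i : ℕ)) := by
  haveI : Fact (Nat.Prime 2) := ⟨Nat.prime_two⟩
  exact Cfsg.Agent.Lib.CharDeep.PartBound.card_mulAut_elem (r := 2)
    (frat_quot_comm S.isPGroup') (frat_quot_sq S.isPGroup') hr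

theorem exists_rank (S : Sylow 2 G) :
    ∃ r, Nat.card (↥(S : Subgroup G) ⧸ frattini ↥(S : Subgroup G)) = 2 ^ r := by
  haveI : Fact (Nat.Prime 2) := ⟨Nat.prime_two⟩
  exact IsPGroup.iff_card.1 (IsPGroup.to_quotient S.isPGroup' _)

/-- The Frattini quotient of a group generated by the finite set `s`. -/
theorem card_frat_le (S : Sylow 2 G) (s : Finset ↥(S : Subgroup G))
    (hs : Subgroup.closure (s : Set ↥(S : Subgroup G)) = ⊤) :
    Nat.card (↥(S : Subgroup G) ⧸ frattini ↥(S : Subgroup G)) ≤ 2 ^ s.card := by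
  classical
  let q := QuotientGroup.mk' (frattini ↥(S : Subgroup G))
  have h1 := card_closure_le (frat_quot_comm S.isPGroup') (frat_quot_sq S.isPGroup') (s.image q)
  have h2 : Subgroup.closure ((s.image q : Finset _) : Set (↥(S : Subgroup G) ⧸ frattini ↥(S : Subgroup G))) = ⊤ := by
    rw [Finset.coe_image, ← MonoidHom.map_closure, hs, Subgroup.map_top_of_surjective _
      (QuotientGroup.mk'_surjective _)]
  rw [h2, Subgroup.card_top] at h1
  exact h1.trans (Nat.pow_le_pow_right (by norm_num) Finset.card_image_le)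

theorem out_solvable_of_rank_le_two (S : Sylow 2 G) (hF : Group.IsSolvable (fixAut (S : Subgroup G)))
    {r : ℕ} (hr : Nat.card (↥(S : Subgroup G) ⧸ frattini ↥(S : Subgroup G)) = 2 ^ r) (hr2 : r ≤ 2) :
    Group.IsSolvable (Out G) := by
  refine out_solvable_of_dvd S hF fun d hd => ?_
  have h1 : Nat.card (fHom (S : Subgroup G)).range ∣
      Nat.card (MulAut (↥(S : Subgroup G) ⧸ frattini ↥(S : Subgroup G))) :=
    Subgroup.card_subgroup_dvd_card _
  rw [card_aut_frat S hr] at h1
  have h2 : d ∣ Nat.card (fHom (S : Subgroup G)).range := Dvd.intro _ hd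
  have h3 : (∏ i : Fin r, (2 ^ r - 2 ^ (i : ℕ))) ∣ 6 := by
    interval_cases r <;> decide
  refine ⟨2, 3, 1, 1, Nat.prime_two, Nat.prime_three, ?_⟩
  exact h2.trans (h1.trans h3)

/-- The case of rank three with a nontrivial odd element in `N_G(S)/C_G(S)`. -/
theorem out_solvable_of_rank_three (S : Sylow 2 G) (hF : Group.IsSolvable (fixAut (S : Subgroup G)))
    (hr : Nat.card (↥(S : Subgroup G) ⧸ frattini ↥(S : Subgroup G)) = 2 ^ 3)
    (g : G) (hg : g ∈ Subgroup.normalizer ((S : Subgroup G) : Set G)) (hodd : Odd (orderOf g))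
    (hgc : g ∉ Subgroup.centralizer ((S : Subgroup G) : Set G)) :
    Group.IsSolvable (Out G) := by
  classical
  refine out_solvable_of_dvd S hF fun d hd => ?_
  have h1 : Nat.card (fHom (S : Subgroup G)).range ∣
      Nat.card (MulAut (↥(S : Subgroup G) ⧸ frattini ↥(S : Subgroup G))) :=
    Subgroup.card_subgroup_dvd_card _
  rw [card_aut_frat S hr] at h1
  have h168 : (∏ i : Fin 3, (2 ^ 3 - 2 ^ (i : ℕ))) = 168 := by decide
  rw [h168] at h1
  -- the element
  have hy : MulAut.conj g ∈ stabAut (S : Subgroup G) := by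
    intro x
    exact (Subgroup.mem_normalizer_iff.1 hg x).symm
  let y : stabAut (S : Subgroup G) := ⟨MulAut.conj g, hy⟩
  have hyX : y ∈ (piOf (stabAut (S : Subgroup G))).ker := by
    rw [MonoidHom.mem_ker, piOf_apply]
    exact (QuotientGroup.eq_one_iff _).2 (conj_mem_inn g)
  have hyo : y ^ orderOf g = 1 := by
    apply Subtype.ext
    show (MulAut.conj g) ^ orderOf g = 1
    rw [← map_pow, pow_orderOf_eq_one, map_one]
  have hfy1 : fHom (S : Subgroup G) y ≠ 1 := by
    intro hf1
    have h2 : restr (S : Subgroup G) y ∈ (frattAct ↥(S : Subgroup G)).ker := hf1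
    have h3 : (⟨_, h2⟩ : (frattAct ↥(S : Subgroup G)).ker) ^ orderOf g = 1 := by
      apply Subtype.ext
      show restr (S : Subgroup G) y ^ orderOf g = 1
      rw [← map_pow, hyo, map_one]
    haveI : Fact (Nat.Prime 2) := ⟨Nat.prime_two⟩
    have h4 : IsPGroup 2 (frattAct ↥(S : Subgroup G)).ker := ker_frattAct_pGroup S.isPGroup'
    obtain ⟨k, hk⟩ := h4 (⟨_, h2⟩ : (frattAct ↥(S : Subgroup G)).ker)
    have h5 : orderOf (⟨_, h2⟩ : (frattAct ↥(S : Subgroup G)).ker) ∣ orderOf g := orderOf_dvd_of_pow_eq_one h3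
    have h6 : orderOf (⟨_, h2⟩ : (frattAct ↥(S : Subgroup G)).ker) ∣ 2 ^ k := orderOf_dvd_of_pow_eq_one hk
    have h7 : Nat.Coprime (orderOf g) (2 ^ k) := Nat.Coprime.pow_right _ (Nat.coprime_two_right.2 hodd)
    have h8 := Nat.eq_one_of_dvd_coprimes h7 h5 h6
    have h9 := orderOf_eq_one_iff.1 h8
    have h10 : restr (S : Subgroup G) y = 1 := congrArg Subtype.val h9
    apply hgc
    rw [Subgroup.mem_centralizer_iff]
    intro x hx
    have h11 := DFunLike.congr_fun h10 ⟨x, hx⟩
    have h12 : g * x * g⁻¹ = x := congrArg Subtype.val h11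
    exact (eq_mul_of_mul_inv_eq h12).symm
  obtain ⟨p, hp, hpd⟩ := Nat.exists_prime_and_dvd (orderOf_eq_one_iff.not.2 hfy1)
  have hpg : p ∣ orderOf g := hpd.trans (orderOf_dvd_of_pow_eq_one (by rw [← map_pow, hyo, map_one]))
  have hp2 : p ≠ 2 := by
    rintro rfl
    exact (Nat.not_even_iff_odd.2 hodd) (even_iff_two_dvd.2 hpg)
  let fy : ((piOf (stabAut (S : Subgroup G))).ker.map (fHom (S : Subgroup G))) :=
    ⟨fHom (S : Subgroup G) y, ⟨y, hyX, rfl⟩⟩
  have hpL : p ∣ Nat.card ((piOf (stabAut (S : Subgroup G))).ker.map (fHom (S : Subgroup G))) := by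
    refine hpd.trans ?_
    have h2 : orderOf (fHom (S : Subgroup G) y) = orderOf fy := Subgroup.orderOf_coe fy
    rw [h2]
    exact orderOf_dvd_natCard fy
  obtain ⟨c, hc⟩ := hpL
  rw [hc] at hd
  have h3 : d * p ∣ 168 := by
    refine dvd_trans ?_ h1
    rw [← hd]
    exact ⟨c, by ring⟩
  have hp168 : p ∣ 168 := (Dvd.intro_left d rfl).trans h3
  have hp37 : p = 3 ∨ p = 7 := by
    have hfac : (168 : ℕ) = 2 ^ 3 * (3 * 7) := by norm_num
    rw [hfac] at hp168
    rcases (Nat.Prime.dvd_mul hp).1 hp168 with h | h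
    · exact absurd ((Nat.prime_dvd_prime_iff_eq hp Nat.prime_two).1 (hp.dvd_of_dvd_pow h)) hp2
    · rcases (Nat.Prime.dvd_mul hp).1 h with h' | h'
      · exact Or.inl ((Nat.prime_dvd_prime_iff_eq hp Nat.prime_three).1 h')
      · exact Or.inr ((Nat.prime_dvd_prime_iff_eq hp (by norm_num)).1 h')
  rcases hp37 with rfl | rfl
  · refine ⟨2, 7, 3, 1, Nat.prime_two, by norm_num, ?_⟩
    have : d * 3 ∣ 56 * 3 := by simpa using h3
    exact Nat.dvd_of_mul_dvd_mul_right (by norm_num) this
  · refine ⟨2, 3, 3, 1, Nat.prime_two, Nat.prime_three, ?_⟩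
    have : d * 7 ∣ 24 * 7 := by simpa using h3
    exact Nat.dvd_of_mul_dvd_mul_right (by norm_num) this

end main

end Cfsg.Agent.Lib.OutSolv.Frat
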