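import Mathlib
import Cfsg.Agent.Lib.OutSolv.Frat
import Cfsg.Agent.Lib.Zsig.Basic

/-!
# Groups of automorphisms of an elementary abelian `2`-group, transitive on the involutions

We construct a subgroup `R` of a transitive group `L₀` with solvable normalizer (in the whole
automorphism group), for which the Frattini argument holds.
-/

set_option autoImplicit false
set_option linter.all false

namespace Cfsg.Agent.Lib.OutSolv.Transitive

open Cfsg.Agent.Lib.OutSolv.Base Cfsg.Agent.Lib.OutSolv.Frat
open scoped commutatorElement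

universe u

section orbits

/-- The orbits of a Sylow subgroup. -/
theorem sylow_orbit_dvd {L Z : Type*} [Group L] [Finite L] [MulAction L Z] {q c : ℕ}
    [Fact q.Prime] (P : Sylow q L) (z : Z) (h : q ^ c ∣ Nat.card (MulAction.orbit L z)) :
    q ^ c ∣ Nat.card (MulAction.orbit (P : Subgroup L) z) := by
  have h1 : Nat.card (MulAction.orbit L z) = (MulAction.stabilizer L z).index := by
    rw [Nat.card_congr (MulAction.orbitEquivQuotientStabilizer L z)]
    rfl
  have h2 : Nat.card (MulAction.orbit (P : Subgroup L) z) =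
      (MulAction.stabilizer (P : Subgroup L) z).index := by
    rw [Nat.card_congr (MulAction.orbitEquivQuotientStabilizer (P : Subgroup L) z)]
    rfl
  have h3 := Subgroup.card_mul_index (MulAction.stabilizer L z)
  have h4 := Subgroup.card_mul_index (MulAction.stabilizer (P : Subgroup L) z)
  rw [← h2] at h4
  rw [← h1] at h3
  obtain ⟨t, ht⟩ := IsPGroup.iff_card.1
    (P.isPGroup'.to_subgroup (MulAction.stabilizer (P : Subgroup L) z))
  have h5 : Nat.card (MulAction.stabilizer (P : Subgroup L) z) ∣
      Nat.card (MulAction.stabilizer L z) := by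
    let f : MulAction.stabilizer (P : Subgroup L) z →* MulAction.stabilizer L z :=
      { toFun := fun x => ⟨x.1.1, x.2⟩
        map_one' := rfl
        map_mul' := fun _ _ => rfl }
    refine Subgroup.card_dvd_of_injective f ?_
    intro x y hxy
    have h6 : x.1.1 = y.1.1 := congrArg (fun w : MulAction.stabilizer L z => (w : L)) hxy
    exact Subtype.ext (Subtype.ext h6)
  have h6 : q ^ t * q ^ c ∣ Nat.card L := by
    rw [← h3, ← ht]
    exact Nat.mul_dvd_mul h5 h
  rw [← pow_add] at h6
  have h7 := P.pow_dvd_card_of_pow_dvd_card h6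
  rw [pow_add] at h7
  have h8 : Nat.card (P : Subgroup L) = q ^ t * Nat.card (MulAction.orbit (P : Subgroup L) z) := by
    rw [← h4, ht]
  have h9 : Nat.card P = Nat.card (P : Subgroup L) := rfl
  rw [h9, h8] at h7
  exact Nat.dvd_of_mul_dvd_mul_left (pow_pos (Fact.out : q.Prime).pos t) h7

/-- Divisibility of the size of an invariant set, all of whose orbits have size divisible by `m`. -/
theorem dvd_ncard_of_invariant {P Z : Type*} [Group P] [MulAction P Z] [Finite Z] (m : ℕ) :
    ∀ (n : ℕ) (A : Set Z), A.ncard = n → (∀ p : P, ∀ z ∈ A, p • z ∈ A) →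
      (∀ z ∈ A, m ∣ Nat.card (MulAction.orbit P z)) → m ∣ n := by
  intro n
  induction n using Nat.strong_induction_on with
  | _ n ih =>
    intro A hn hA h
    rcases A.eq_empty_or_nonempty with rfl | ⟨z, hz⟩
    · rw [Set.ncard_empty] at hn
      rw [← hn]
      exact dvd_zero m
    · have hO : MulAction.orbit P z ⊆ A := by
        rintro _ ⟨p, rfl⟩
        exact hA p z hz
      have h1 := Set.ncard_diff_add_ncard_of_subset hO (Set.toFinite A)
      have h2 : m ∣ (MulAction.orbit P z).ncard := by
        rw [← Nat.card_coe_set_eq]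
        exact h z hz
      have h3 : 0 < (MulAction.orbit P z).ncard := by
        rw [Set.ncard_pos (Set.toFinite _)]
        exact ⟨z, MulAction.mem_orbit_self z⟩
      have h4 := ih (A \ MulAction.orbit P z).ncard (by omega) (A \ MulAction.orbit P z) rfl
        (by
          rintro p w ⟨hw, hw'⟩
          refine ⟨hA p w hw, fun h5 => hw' ?_⟩
          rw [← MulAction.orbit_eq_iff, MulAction.orbit_smul] at h5
          rw [← h5]
          exact MulAction.mem_orbit_self w) (fun w hw => h w hw.1)
      rw [← hn, ← h1]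
      exact dvd_add h4 h2


/-- A group of automorphisms, all of whose orbits on the nonidentity elements have size divisible
by `m`, is irreducible. -/
theorem irr_of_dvd {Y : Type*} [Group Y] [Finite Y] {n : ℕ} (hcard : Nat.card Y = 2 ^ n)
    (X : Subgroup (MulAut Y)) (m : ℕ) (hm : ∀ k, 0 < k → k < n → ¬ m ∣ 2 ^ k - 1)
    (horb : ∀ v : Y, v ≠ 1 → m ∣ Nat.card (MulAction.orbit X v))
    (U : Subgroup Y) (hU : ∀ x ∈ X, ∀ u ∈ U, x u ∈ U) : U = ⊥ ∨ U = ⊤ := by
  let A : Set Y := (U : Set Y) \ {1}
  have h1 : A.ncard + 1 = Nat.card U := by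
    have := Set.ncard_diff_singleton_add_one (s := (U : Set Y)) (a := 1) U.one_mem (Set.toFinite _)
    rw [this]
    exact (Nat.card_coe_set_eq _).symm
  have h2 : m ∣ A.ncard := by
    refine dvd_ncard_of_invariant (P := X) m _ A rfl ?_ ?_
    · rintro p z ⟨hz, hz1⟩
      refine ⟨hU p.1 p.2 z hz, fun h3 => hz1 ?_⟩
      have h4 : (p : MulAut Y) z = 1 := h3
      exact (map_eq_one_iff _ (MulEquiv.injective _)).1 h4
    · rintro z ⟨_, hz1⟩
      exact horb z hz1
  have h3 : Nat.card U ∣ 2 ^ n := by
    rw [← hcard]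
    exact Subgroup.card_subgroup_dvd_card U
  obtain ⟨u, hun, hu⟩ := (Nat.dvd_prime_pow Nat.prime_two).1 h3
  rcases Nat.eq_zero_or_pos u with rfl | hu0
  · left
    rw [pow_zero] at hu
    exact Subgroup.eq_bot_of_card_eq _ hu
  · rcases hun.eq_or_lt with rfl | hlt
    · right
      exact Subgroup.eq_top_of_card_eq _ (by rw [hu, hcard])
    · exfalso
      apply hm u hu0 hlt
      have : A.ncard = 2 ^ u - 1 := by omega
      rwa [← this]

/-- **Schur's lemma**: the centralizer of an irreducible group of automorphisms of an abelian group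
is cyclic. -/
theorem centralizer_cyclic {Y : Type*} [Group Y] [Finite Y] [Nontrivial Y]
    (hc : ∀ x y : Y, x * y = y * x) (X : Subgroup (MulAut Y))
    (hirr : ∀ U : Subgroup Y, (∀ x ∈ X, ∀ u ∈ U, x u ∈ U) → U = ⊥ ∨ U = ⊤) :
    IsCyclic (Subgroup.centralizer (X : Set (MulAut Y))) := by
  classical
  letI iC : CommGroup Y := { ‹Group Y› with mul_comm := hc }
  haveI : Finite (Additive Y) := inferInstanceAs (Finite Y)
  haveI : Finite (MulAut Y) :=
    Finite.of_injective (fun φ : MulAut Y => (φ : Y → Y)) DFunLike.coe_injective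
  haveI hfinE : Finite (AddMonoid.End (Additive Y)) :=
    Finite.of_injective (fun φ : AddMonoid.End (Additive Y) => (φ : Additive Y → Additive Y))
      DFunLike.coe_injective
  let ψ : MulAut Y →* AddMonoid.End (Additive Y) :=
    { toFun := fun φ => MonoidHom.toAdditive φ.toMonoidHom
      map_one' := by
        ext x
        rfl
      map_mul' := fun a b => by
        ext x
        rfl }
  have hψ : ∀ (φ : MulAut Y) (u : Y), ψ φ (Additive.ofMul u) = Additive.ofMul (φ u) := fun _ _ => rfl
  let E : Subring (AddMonoid.End (Additive Y)) :=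
    Subring.centralizer (Set.range (fun x : X => ψ x))
  have hE : ∀ f : E, ∀ x ∈ X, ∀ u : Y, f.1 (ψ x (Additive.ofMul u)) = ψ x (f.1 (Additive.ofMul u)) := by
    intro f x hx u
    have h1 := (Subring.mem_centralizer_iff.1 f.2) (ψ x) ⟨⟨x, hx⟩, rfl⟩
    have h2 := DFunLike.congr_fun h1 (Additive.ofMul u)
    exact h2.symm
  have hinj : ∀ f : E, f ≠ 0 → ∀ b : Additive Y, f.1 b = 0 → b = 0 := by
    intro f hf b hb
    let U : Subgroup Y :=
      { carrier := {u : Y | f.1 (Additive.ofMul u) = 0}
        one_mem' := by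
          show f.1 (Additive.ofMul 1) = 0
          rw [ofMul_one, map_zero]
        mul_mem' := by
          intro x y hx hy
          show f.1 (Additive.ofMul (x * y)) = 0
          rw [ofMul_mul, map_add, hx, hy, add_zero]
        inv_mem' := by
          intro x hx
          show f.1 (Additive.ofMul x⁻¹) = 0
          rw [ofMul_inv, map_neg, hx, neg_zero] }
    have hU : ∀ x ∈ X, ∀ u ∈ U, x u ∈ U := by
      intro x hx u hu
      show f.1 (Additive.ofMul (x u)) = 0
      have h2 := hE f x hx u
      rw [hψ] at h2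
      rw [h2]
      have h3 : f.1 (Additive.ofMul u) = 0 := hu
      rw [h3, map_zero]
    rcases hirr U hU with h | h
    · have h3 : Additive.toMul b ∈ U := hb
      rw [h, Subgroup.mem_bot] at h3
      exact h3
    · exfalso
      apply hf
      apply Subtype.ext
      ext w
      have h3 : Additive.toMul (Additive.ofMul (Additive.toMul w)) ∈ U := by
        rw [h]
        trivial
      exact h3
  haveI : Nontrivial E := by
    refine ⟨⟨1, 0, fun h => ?_⟩⟩
    obtain ⟨v, hv⟩ := exists_ne (1 : Y)
    have h1 : (1 : E).1 (Additive.ofMul v) = (0 : E).1 (Additive.ofMul v) := by rw [h]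
    exact hv h1
  haveI : NoZeroDivisors E := ⟨by
    intro a b hab
    by_contra hne
    push Not at hne
    apply hne.2
    apply Subtype.ext
    ext w
    have h1 : a.1 (b.1 w) = 0 := by
      have h2 : (a * b).1 w = 0 := by
        rw [hab]
        rfl
      exact h2
    exact hinj a hne.1 _ h1⟩
  haveI : IsDomain E := NoZeroDivisors.to_isDomain E
  haveI : Finite E := inferInstance
  have hF : IsField E := Finite.isDomain_to_isField E
  letI iCR : CommRing E := { (inferInstance : Ring E) with mul_comm := hF.mul_comm }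
  haveI : IsDomain E := by
    have : IsDomain E := inferInstance
    exact this
  let F : Subgroup.centralizer (X : Set (MulAut Y)) →* E :=
    { toFun := fun g => ⟨ψ g.1, by
        rw [Subring.mem_centralizer_iff]
        rintro _ ⟨x, rfl⟩
        have h1 := Subgroup.mem_centralizer_iff.1 g.2 x.1 x.2
        show ψ x.1 * ψ g.1 = ψ g.1 * ψ x.1
        rw [← map_mul, ← map_mul, h1]⟩
      map_one' := by
        apply Subtype.ext
        exact map_one ψ
      map_mul' := fun a b => by
        apply Subtype.ext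
        exact map_mul ψ a.1 b.1 }
  refine isCyclic_of_subgroup_isDomain F ?_
  intro a b hab
  apply Subtype.ext
  ext u
  have h1 : (F a).1 (Additive.ofMul u) = (F b).1 (Additive.ofMul u) := by rw [hab]
  exact h1

/-- The normalizer of a subgroup, through its centralizer and automizer. -/
theorem normalizer_solvable_of {H : Type*} [Group H] (R : Subgroup H)
    (hC : Group.IsSolvable (Subgroup.centralizer (R : Set H)))
    (hA : Group.IsSolvable R.normalizerMonoidHom.range) :
    Group.IsSolvable (Subgroup.normalizer (R : Set H)) := by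
  haveI hker : Group.IsSolvable R.normalizerMonoidHom.ker := by
    let f : R.normalizerMonoidHom.ker →* Subgroup.centralizer (R : Set H) :=
      { toFun := fun x => ⟨x.1.1, by
          have h1 := (SetLike.ext_iff.1 (Subgroup.normalizerMonoidHom_ker R) x.1).1 x.2
          exact h1⟩
        map_one' := rfl
        map_mul' := fun _ _ => rfl }
    refine solvable_of_solvable_injective (f := f) ?_
    intro x y hxy
    have h1 : x.1.1 = y.1.1 := congrArg (fun w : Subgroup.centralizer (R : Set H) => (w : H)) hxy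
    exact Subtype.ext (Subtype.ext h1)
  refine Group.isSolvable_of_ker_le_range R.normalizerMonoidHom.ker.subtype
    R.normalizerMonoidHom.rangeRestrict ?_
  intro x hx
  have h1 : R.normalizerMonoidHom x = 1 := congrArg Subtype.val hx
  exact ⟨⟨x, h1⟩, rfl⟩

end orbits

section cyc

theorem solvable_of_cyclic (T : Type*) [Group T] [IsCyclic T] : Group.IsSolvable T := by
  letI := IsCyclic.commGroup (α := T)
  infer_instance

/-- The normalizer of an irreducible cyclic group is solvable. -/
theorem cyclic_normalizer_solvable {Y : Type*} [Group Y] [Finite Y] [Nontrivial Y]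
    (hc : ∀ x y : Y, x * y = y * x) (R : Subgroup (MulAut Y))
    (hirr : ∀ U : Subgroup Y, (∀ x ∈ R, ∀ u ∈ U, x u ∈ U) → U = ⊥ ∨ U = ⊤) (hcyc : IsCyclic R) :
    Group.IsSolvable (Subgroup.normalizer (R : Set (MulAut Y))) := by
  refine normalizer_solvable_of R ?_ ?_
  · haveI := centralizer_cyclic hc R hirr
    exact solvable_of_cyclic _
  · haveI : Group.IsSolvable (ZMod (Nat.card R))ˣ := inferInstance
    refine solvable_of_solvable_injective
      (f := (IsCyclic.mulAutMulEquiv R).toMonoidHom.comp R.normalizerMonoidHom.range.subtype) ?_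
    exact (IsCyclic.mulAutMulEquiv R).injective.comp Subtype.val_injective

end cyc

section frat

variable {T : Type*} [Group T] [Finite T] {p : ℕ} [Fact p.Prime]

theorem frat_comm (hP : IsPGroup p T) (x y : T ⧸ frattini T) : x * y = y * x := by
  obtain ⟨x, rfl⟩ := QuotientGroup.mk_surjective x
  obtain ⟨y, rfl⟩ := QuotientGroup.mk_surjective y
  show ((x * y : T) : T ⧸ frattini T) = ((y * x : T) : T ⧸ frattini T)
  rw [QuotientGroup.eq]
  have h3 : (x * y)⁻¹ * (y * x) = y⁻¹ * x⁻¹ * y⁻¹⁻¹ * x⁻¹⁻¹ := by group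
  rw [h3]
  have h6 : ⁅y⁻¹, x⁻¹⁆ ∈ commutator T := by
    rw [commutator_eq_closure]
    exact Subgroup.subset_closure ⟨y⁻¹, x⁻¹, rfl⟩
  have h7 := Cfsg.Agent.Lib.PGroups.Basic.commutator_le_frattini hP h6
  rw [commutatorElement_def] at h7
  exact h7

theorem frat_pow (hP : IsPGroup p T) (x : T ⧸ frattini T) : x ^ p = 1 := by
  obtain ⟨x, rfl⟩ := QuotientGroup.mk_surjective x
  rw [← QuotientGroup.mk_pow, QuotientGroup.eq_one_iff]
  exact Cfsg.Agent.Lib.PGroups.Basic.pow_mem_frattini hP x

theorem ker_frattAct_isP (hP : IsPGroup p T) : IsPGroup p (frattAct T).ker := by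
  have hpp : p.Prime := Fact.out
  obtain ⟨n, hn⟩ := IsPGroup.iff_card.1 hP
  have hV : IsPGroup p (T ⧸ frattini T) := IsPGroup.to_quotient hP _
  obtain ⟨r, hr⟩ := IsPGroup.iff_card.1 hV
  have hr' : (frattini T).index = p ^ r := hr
  have h1 := Cfsg.Agent.Lib.FG7.BurnsideBasis.card_dvd (p := p) hn hr' (frattAct T).ker
    (fun α hα x => mem_ker_frattAct.1 hα x)
  obtain ⟨k, -, hk⟩ := (Nat.dvd_prime_pow hpp).1 h1
  exact IsPGroup.of_card hk

end frat

section six

theorem ker_comp_solvable {A B C : Type*} [Group A] [Group B] [Group C] (u : A →* B) (v : B →* C)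
    (h1 : Group.IsSolvable u.ker) (h2 : Group.IsSolvable v.ker) :
    Group.IsSolvable (v.comp u).ker := by
  let g : (v.comp u).ker →* v.ker :=
    { toFun := fun x => ⟨u x.1, x.2⟩
      map_one' := by
        apply Subtype.ext
        simp
      map_mul' := fun a b => by
        apply Subtype.ext
        simp }
  let f : u.ker →* (v.comp u).ker :=
    { toFun := fun x => ⟨x.1, by
        show v (u x.1) = 1
        rw [x.2, map_one]⟩
      map_one' := rfl
      map_mul' := fun _ _ => rfl }
  refine Group.isSolvable_of_ker_le_range f g ?_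
  intro x hx
  have h3 : u x.1 = 1 := congrArg Subtype.val hx
  exact ⟨⟨x.1, h3⟩, rfl⟩

theorem card_GL_six {Y : Type*} [Group Y] [Finite Y] (hc : ∀ x y : Y, x * y = y * x)
    (h2 : ∀ x : Y, x * x = 1) (hcard : Nat.card Y = 2 ^ 6) :
    Nat.card (MulAut Y) = 20158709760 := by
  haveI : Fact (Nat.Prime 2) := ⟨Nat.prime_two⟩
  rw [Cfsg.Agent.Lib.CharDeep.PartBound.card_mulAut_elem (r := 2) hc
    (fun x => by rw [pow_two]; exact h2 x) hcard]
  simp [Fin.prod_univ_succ]

/-- The normalizer of an irreducible non-abelian `3`-group in `GL(6,2)` is solvable. -/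
theorem six_normalizer_solvable {Y : Type*} [Group Y] [Finite Y]
    (hc : ∀ x y : Y, x * y = y * x) (h2 : ∀ x : Y, x * x = 1) (hcard : Nat.card Y = 2 ^ 6)
    (R : Subgroup (MulAut Y)) (hR : IsPGroup 3 R) (hnc : ¬ ∀ a b : R, a * b = b * a)
    (hC : Group.IsSolvable (Subgroup.centralizer (R : Set (MulAut Y)))) :
    Group.IsSolvable (Subgroup.normalizer (R : Set (MulAut Y))) := by
  classical
  haveI : Fact (Nat.Prime 3) := ⟨Nat.prime_three⟩
  haveI : Finite (MulAut Y) :=
    Finite.of_injective (fun φ : MulAut Y => (φ : Y → Y)) DFunLike.coe_injective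
  have hG := card_GL_six hc h2 hcard
  let W := Subgroup.normalizer (R : Set (MulAut Y))
  let u : W →* MulAut R := R.normalizerMonoidHom
  let v : MulAut R →* MulAut (R ⧸ frattini R) := frattAct R
  let g : W →* MulAut (R ⧸ frattini R) := v.comp u
  have hWdvd : Nat.card W ∣ 20158709760 := by
    rw [← hG]
    exact Subgroup.card_subgroup_dvd_card W
  have hker : Group.IsSolvable g.ker := by
    refine ker_comp_solvable u v ?_ ?_
    · let f : u.ker →* Subgroup.centralizer (R : Set (MulAut Y)) :=
        { toFun := fun x => ⟨x.1.1, by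
            have h1 := (SetLike.ext_iff.1 (Subgroup.normalizerMonoidHom_ker R) x.1).1 x.2
            exact h1⟩
          map_one' := rfl
          map_mul' := fun _ _ => rfl }
      refine solvable_of_solvable_injective (f := f) ?_
      intro x y hxy
      have h1 : x.1.1 = y.1.1 :=
        congrArg (fun w : Subgroup.centralizer (R : Set (MulAut Y)) => (w : MulAut Y)) hxy
      exact Subtype.ext (Subtype.ext h1)
    · haveI := (ker_frattAct_isP (p := 3) hR).isNilpotent
      infer_instance
  have hrange : Group.IsSolvable g.range := by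
    obtain ⟨d, hd⟩ := IsPGroup.iff_card.1 (IsPGroup.to_quotient hR (frattini R))
    obtain ⟨r, hr⟩ := IsPGroup.iff_card.1 hR
    -- `R` has order at most `3^4`
    have hr4 : r ≤ 4 := by
      have h1 : (3 : ℕ) ^ r ∣ 20158709760 := by
        rw [← hr]
        exact (Subgroup.card_subgroup_dvd_card R).trans (by rw [hG])
      by_contra hcon
      have h3 : (3 : ℕ) ^ 5 ∣ 3 ^ r := pow_dvd_pow 3 (by omega)
      have h4 := h3.trans h1
      norm_num at h4
    -- the Frattini subgroup is nontrivial
    have hΦ : frattini R ≠ ⊥ := by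
      intro hbot
      apply hnc
      intro a b
      have h1 : ⁅a, b⁆ ∈ commutator R := by
        rw [commutator_eq_closure]
        exact Subgroup.subset_closure ⟨a, b, rfl⟩
      have h3 := Cfsg.Agent.Lib.PGroups.Basic.commutator_le_frattini hR h1
      rw [hbot, Subgroup.mem_bot] at h3
      exact commutatorElement_eq_one_iff_mul_comm.1 h3
    have hd3 : d ≤ 3 := by
      have h1 := Subgroup.card_mul_index (frattini R)
      have h3 : (frattini R).index = 3 ^ d := hd
      obtain ⟨f, hf⟩ := IsPGroup.iff_card.1 (hR.to_subgroup (frattini R))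
      rw [h3, hf, hr, ← pow_add] at h1
      have h4 := Nat.pow_right_injective (le_refl 2 |>.trans (by norm_num : 2 ≤ 3)) h1
      have hf0 : f ≠ 0 := by
        rintro rfl
        apply hΦ
        exact Subgroup.eq_bot_of_card_eq _ (by simpa using hf)
      omega
    have h3 : Nat.card g.range ∣ Nat.card (MulAut (R ⧸ frattini R)) :=
      Subgroup.card_subgroup_dvd_card _
    rw [Cfsg.Agent.Lib.CharDeep.PartBound.card_mulAut_elem (r := 3) (frat_comm hR)
      (frat_pow hR) hd] at h3
    have h4 : (∏ i : Fin d, (3 ^ d - 3 ^ (i : ℕ))) ∣ 11232 := by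
      interval_cases d <;> simp [Fin.prod_univ_succ] <;> norm_num
    have h5 : Nat.card g.range ∣ 20158709760 := (Subgroup.card_range_dvd g).trans hWdvd
    have h6 : Nat.card g.range ∣ 2 ^ 5 * 3 ^ 3 := by
      have h7 := Nat.dvd_gcd (h3.trans h4) h5
      have h8 : Nat.gcd 11232 20158709760 = 2 ^ 5 * 3 ^ 3 := by norm_num
      rwa [h8] at h7
    obtain ⟨a', b', hab⟩ := Cfsg.Agent.Lib.Char.Burnside.exists_eq_pow_mul_pow_of_dvd
      Nat.prime_two Nat.prime_three h6
    exact Cfsg.Agent.Lib.Char.Burnside.isSolvable_of_card_eq 2 3 a' b' Nat.prime_two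
      Nat.prime_three hab
  refine Group.isSolvable_of_ker_le_range g.ker.subtype g.rangeRestrict ?_
  intro x hx
  have h1 : g x = 1 := congrArg Subtype.val hx
  exact ⟨⟨x, h1⟩, rfl⟩

end six

section frattiniArg

/-- The Frattini argument for a subgroup `L₀` of a finite group and its normalizer. -/
theorem frattini_arg {H : Type*} [Group H] [Finite H] (L₀ : Subgroup H) {q : ℕ} [Fact q.Prime]
    (P : Sylow q L₀) {ℓ : H} (hℓ : ℓ ∈ Subgroup.normalizer (L₀ : Set H)) :
    ∃ ℓ₀ ∈ L₀, ℓ₀⁻¹ * ℓ ∈ Subgroup.normalizer (((P : Subgroup L₀).map L₀.subtype : Subgroup H) : Set H) := by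
  have hℓ' := Subgroup.mem_normalizer_iff.1 hℓ
  let φ : MulAut L₀ :=
    { toFun := fun x => ⟨ℓ * x * ℓ⁻¹, (hℓ' x).1 x.2⟩
      invFun := fun x => ⟨ℓ⁻¹ * x * ℓ, by
        have h1 := (hℓ' (ℓ⁻¹ * x * ℓ)).2
        apply h1
        have h2 : ℓ * (ℓ⁻¹ * (x : H) * ℓ) * ℓ⁻¹ = x := by group
        rw [h2]
        exact x.2⟩
      left_inv := fun x => by
        apply Subtype.ext
        show ℓ⁻¹ * (ℓ * (x : H) * ℓ⁻¹) * ℓ = x
        group
      right_inv := fun x => by
        apply Subtype.ext
        show ℓ * (ℓ⁻¹ * (x : H) * ℓ) * ℓ⁻¹ = x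
        group
      map_mul' := fun x y => by
        apply Subtype.ext
        show ℓ * ((x : H) * y) * ℓ⁻¹ = (ℓ * x * ℓ⁻¹) * (ℓ * y * ℓ⁻¹)
        group }
  obtain ⟨ℓ₀, hℓ₀⟩ := MulAction.exists_smul_eq L₀ P (φ • P)
  refine ⟨ℓ₀, ℓ₀.2, ?_⟩
  refine Subgroup.mem_normalizer_fintype ?_
  rintro _ ⟨p, hp, rfl⟩
  have h1 : φ p ∈ ((φ • P : Sylow q L₀) : Subgroup L₀) := by
    rw [Sylow.pointwise_smul_def, Subgroup.mem_pointwise_smul_iff_inv_smul_mem]
    change φ⁻¹ • (φ • p) ∈ _
    rw [inv_smul_smul]
    exact hp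
  rw [← hℓ₀, Sylow.smul_def, Sylow.pointwise_smul_def,
    Subgroup.mem_pointwise_smul_iff_inv_smul_mem] at h1
  refine ⟨_, h1, ?_⟩
  have h2 : (MulAut.conj ℓ₀)⁻¹ • φ p = ℓ₀⁻¹ * φ p * ℓ₀ := by
    rw [MulAut.smul_def, MulAut.conj_inv_apply]
  rw [h2]
  show (ℓ₀ : H)⁻¹ * (ℓ * p * ℓ⁻¹) * ℓ₀ = (ℓ₀ : H)⁻¹ * ℓ * p * ((ℓ₀ : H)⁻¹ * ℓ)⁻¹
  group

end frattiniArg

section lemmaZ

/-- The arithmetic input. -/
theorem exists_ppd (n : ℕ) (hn : 2 ≤ n) :
    ∃ q c : ℕ, q.Prime ∧ 1 ≤ c ∧ q ^ c ∣ 2 ^ n - 1 ∧
      (∀ k, 0 < k → k < n → ¬ q ^ c ∣ 2 ^ k - 1) ∧ (c = 1 ∨ (n = 6 ∧ q = 3)) := by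
  by_cases h6 : n = 6
  · subst h6
    refine ⟨3, 2, Nat.prime_three, by norm_num, by norm_num, ?_, Or.inr ⟨rfl, rfl⟩⟩
    intro k hk0 hk6
    interval_cases k <;> norm_num
  · obtain ⟨r, hr, hd, hk⟩ := Cfsg.Agent.Lib.Zsig.Basic.zsigmondy 2 n (by norm_num) (by omega)
      (by omega) (by
        rintro ⟨_, m, hm⟩
        cases m with
        | zero => simp at hm
        | succ m =>
          rw [pow_succ] at hm
          omega)
    exact ⟨r, 1, hr, le_rfl, by simpa using hd, by simpa using hk, Or.inl rfl⟩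

/-- The orbits of a subgroup of `L₀`. -/
theorem sylow_orbits {Y : Type*} [Group Y] [Finite Y] {n : ℕ} (hcard : Nat.card Y = 2 ^ n)
    (L₀ : Subgroup (MulAut Y)) (htr : ∀ x y : Y, x ≠ 1 → y ≠ 1 → ∃ ℓ ∈ L₀, ℓ x = y) {q c : ℕ}
    [Fact q.Prime] (hdvd : q ^ c ∣ 2 ^ n - 1) (P : Sylow q L₀) (v : Y) (hv : v ≠ 1) :
    q ^ c ∣ Nat.card (MulAction.orbit ((P : Subgroup L₀).map L₀.subtype) v) := by
  haveI : Finite (MulAut Y) :=
    Finite.of_injective (fun φ : MulAut Y => (φ : Y → Y)) DFunLike.coe_injective
  have h1 : MulAction.orbit L₀ v = (Set.univ : Set Y) \ {1} := by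
    ext x
    constructor
    · rintro ⟨ℓ, rfl⟩
      refine ⟨trivial, fun h => hv ?_⟩
      have h2 : (ℓ : MulAut Y) v = 1 := h
      exact (map_eq_one_iff _ (MulEquiv.injective _)).1 h2
    · rintro ⟨_, hx⟩
      obtain ⟨ℓ, hℓ, h2⟩ := htr v x hv hx
      exact ⟨⟨ℓ, hℓ⟩, h2⟩
  have h2 : Nat.card (MulAction.orbit L₀ v) = 2 ^ n - 1 := by
    rw [h1, Nat.card_coe_set_eq]
    have h3 := Set.ncard_diff_singleton_add_one (s := (Set.univ : Set Y)) (a := 1) trivial
      (Set.toFinite _)
    rw [Set.ncard_univ, hcard] at h3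
    omega
  have h3 := sylow_orbit_dvd P v (by rw [h2]; exact hdvd)
  have h4 : MulAction.orbit ((P : Subgroup L₀).map L₀.subtype) v =
      MulAction.orbit (P : Subgroup L₀) v := by
    ext x
    constructor
    · rintro ⟨⟨_, p, hp, rfl⟩, rfl⟩
      exact ⟨⟨p, hp⟩, rfl⟩
    · rintro ⟨⟨p, hp⟩, rfl⟩
      exact ⟨⟨_, p, hp, rfl⟩, rfl⟩
  rw [h4]
  exact h3

/-- **Lemma Z.**  A group of automorphisms of an elementary abelian `2`-group, transitive on the
non-identity elements, contains a subgroup `R` with solvable normalizer in the whole automorphism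
group, and with a Frattini factorization of the normalizer of `L₀`. -/
theorem lemmaZ {Y : Type*} [Group Y] [Finite Y] (hc : ∀ x y : Y, x * y = y * x)
    (h2 : ∀ x : Y, x * x = 1) (L₀ : Subgroup (MulAut Y))
    (htr : ∀ x y : Y, x ≠ 1 → y ≠ 1 → ∃ ℓ ∈ L₀, ℓ x = y) :
    ∃ R : Subgroup (MulAut Y), Group.IsSolvable (Subgroup.normalizer (R : Set (MulAut Y))) ∧
      ∀ ℓ ∈ Subgroup.normalizer (L₀ : Set (MulAut Y)), ∃ ℓ₀ ∈ L₀,
        ℓ₀⁻¹ * ℓ ∈ Subgroup.normalizer (R : Set (MulAut Y)) := by
  classical
  haveI : Fact (Nat.Prime 2) := ⟨Nat.prime_two⟩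
  haveI : Finite (MulAut Y) :=
    Finite.of_injective (fun φ : MulAut Y => (φ : Y → Y)) DFunLike.coe_injective
  have hY2 : IsPGroup 2 Y := fun x => ⟨1, by rw [pow_one, pow_two]; exact h2 x⟩
  obtain ⟨n, hcard⟩ := IsPGroup.iff_card.1 hY2
  by_cases hn : n ≤ 1
  · have h3 : Nat.card (MulAut Y) = 1 := by
      rw [Cfsg.Agent.Lib.CharDeep.PartBound.card_mulAut_elem (r := 2) hc
        (fun x => by rw [pow_two]; exact h2 x) hcard]
      interval_cases n <;> simp
    haveI : Subsingleton (MulAut Y) := (Nat.card_eq_one_iff_unique.1 h3).1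
    refine ⟨⊥, inferInstance, fun ℓ _ => ⟨1, Subgroup.one_mem _, ?_⟩⟩
    rw [Subsingleton.elim (1⁻¹ * ℓ) 1]
    exact Subgroup.one_mem _
  · have hn2 : 2 ≤ n := by omega
    haveI : Nontrivial Y := by
      refine Finite.one_lt_card_iff_nontrivial.1 ?_
      rw [hcard]
      exact Nat.one_lt_pow (by omega) (by norm_num)
    obtain ⟨v₁, hv₁⟩ := exists_ne (1 : Y)
    obtain ⟨q, c, hq, hc1, hdvd, hk, hcase⟩ := exists_ppd n hn2
    haveI : Fact q.Prime := ⟨hq⟩
    obtain ⟨P⟩ : Nonempty (Sylow q L₀) := inferInstance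
    let R : Subgroup (MulAut Y) := (P : Subgroup L₀).map L₀.subtype
    have horb : ∀ v : Y, v ≠ 1 → q ^ c ∣ Nat.card (MulAction.orbit R v) :=
      fun v hv => sylow_orbits hcard L₀ htr hdvd P v hv
    have hirr := irr_of_dvd hcard R (q ^ c) hk horb
    have hRp : IsPGroup q R := P.isPGroup'.map L₀.subtype
    refine ⟨R, ?_, fun ℓ hℓ => frattini_arg L₀ P hℓ⟩
    have hRC : Group.IsSolvable (Subgroup.centralizer (R : Set (MulAut Y))) := by
      haveI := centralizer_cyclic hc R hirr
      exact solvable_of_cyclic _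
    rcases hcase with rfl | ⟨rfl, rfl⟩
    · -- the primitive prime divisor case
      have hRne : (⊤ : Subgroup R) ≠ ⊥ := by
        intro hbot
        haveI : Subsingleton R := by
          refine ⟨fun a b => ?_⟩
          have ha : a ∈ (⊤ : Subgroup R) := trivial
          have hb : b ∈ (⊤ : Subgroup R) := trivial
          rw [hbot, Subgroup.mem_bot] at ha hb
          rw [ha, hb]
        have h3 := horb v₁ hv₁
        have h4 : Nat.card (MulAction.orbit R v₁) = 1 := by
          refine Nat.card_eq_one_iff_unique.2 ⟨⟨?_⟩, ⟨⟨v₁, MulAction.mem_orbit_self v₁⟩⟩⟩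
          rintro ⟨_, r, rfl⟩ ⟨_, s, rfl⟩
          rw [Subsingleton.elim r s]
        rw [h4, pow_one] at h3
        exact hq.one_lt.ne' (Nat.dvd_one.1 h3)
      obtain ⟨y, -, hycen, hyord⟩ :=
        Cfsg.Agent.Lib.PGroups.Basic.exists_central_orderOf_eq hRp ⊤ hRne
      have hyord' : orderOf (y : MulAut Y) = q := by
        rw [Subgroup.orderOf_coe]
        exact hyord
      have hycomm : ∀ x ∈ R, (y : MulAut Y) * x = x * y := by
        intro x hx
        have h3 := (Subgroup.mem_center_iff.1 hycen) ⟨x, hx⟩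
        exact (congrArg Subtype.val h3).symm
      let U₀ : Subgroup Y :=
        { carrier := {u | (y : MulAut Y) u = u}
          one_mem' := map_one _
          mul_mem' := by
            intro a b ha hb
            show (y : MulAut Y) (a * b) = a * b
            rw [map_mul, ha, hb]
          inv_mem' := by
            intro a ha
            show (y : MulAut Y) a⁻¹ = a⁻¹
            rw [map_inv, ha] }
      have hU₀ : ∀ x ∈ R, ∀ u ∈ U₀, x u ∈ U₀ := by
        intro x hx u hu
        show (y : MulAut Y) (x u) = x u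
        have h3 : ((y : MulAut Y) * x) u = (x * y) u := by rw [hycomm x hx]
        have h4 : (y : MulAut Y) (x u) = x ((y : MulAut Y) u) := h3
        rw [h4]
        have h5 : (y : MulAut Y) u = u := hu
        rw [h5]
      have hU₀bot : U₀ = ⊥ := by
        rcases hirr U₀ hU₀ with h | h
        · exact h
        · exfalso
          have h3 : (y : MulAut Y) = 1 := by
            ext u
            have h4 : u ∈ U₀ := by
              rw [h]
              trivial
            exact h4
          rw [h3, orderOf_one] at hyord'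
          exact hq.one_lt.ne hyord'
      let X : Subgroup (MulAut Y) := Subgroup.zpowers (y : MulAut Y)
      have horbX : ∀ v : Y, v ≠ 1 → q ∣ Nat.card (MulAction.orbit X v) := by
        intro v hv
        have h3 : Nat.card (MulAction.orbit X v) ∣ q := by
          have h4 : Nat.card (MulAction.orbit X v) = (MulAction.stabilizer X v).index := by
            rw [Nat.card_congr (MulAction.orbitEquivQuotientStabilizer X v)]
            rfl
          rw [h4, ← hyord', ← Nat.card_zpowers]
          exact Subgroup.index_dvd_card _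
        rcases (Nat.dvd_prime hq).1 h3 with h4 | h4
        · exfalso
          apply hv
          have h5 := (Nat.card_eq_one_iff_unique.1 h4).1
          have h6 : (y : MulAut Y) v ∈ MulAction.orbit X v :=
            ⟨⟨(y : MulAut Y), Subgroup.mem_zpowers _⟩, rfl⟩
          have h7 := Subsingleton.elim (⟨_, h6⟩ : MulAction.orbit X v)
            ⟨v, MulAction.mem_orbit_self v⟩
          have h8 : v ∈ U₀ := congrArg Subtype.val h7
          rw [hU₀bot] at h8
          exact h8
        · rw [h4]
      have hirrX := irr_of_dvd hcard X q (fun k h0 h1 => by simpa using hk k h0 h1) horbX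
      haveI hCX := centralizer_cyclic hc X hirrX
      have hle : R ≤ Subgroup.centralizer (X : Set (MulAut Y)) := by
        intro r hr
        rw [Subgroup.mem_centralizer_iff]
        intro x hx
        obtain ⟨k, rfl⟩ := Subgroup.mem_zpowers_iff.1 hx
        have h3 : Commute (y : MulAut Y) r := hycomm r hr
        exact (h3.zpow_left k)
      have hRcyc : IsCyclic R :=
        isCyclic_of_injective (Subgroup.inclusion hle) (Subgroup.inclusion_injective hle)
      exact cyclic_normalizer_solvable hc R hirr hRcyc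
    · -- the case `n = 6`
      by_cases hnc : ∀ a b : R, a * b = b * a
      · have hle : R ≤ Subgroup.centralizer (R : Set (MulAut Y)) := by
          intro r hr
          rw [Subgroup.mem_centralizer_iff]
          intro x hx
          exact congrArg Subtype.val (hnc ⟨x, hx⟩ ⟨r, hr⟩)
        haveI hCR := centralizer_cyclic hc R hirr
        have hRcyc : IsCyclic R :=
          isCyclic_of_injective (Subgroup.inclusion hle) (Subgroup.inclusion_injective hle)
        exact cyclic_normalizer_solvable hc R hirr hRcyc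
      · exact six_normalizer_solvable hc h2 hcard R hRp hnc hRC

end lemmaZ

end Cfsg.Agent.Lib.OutSolv.Transitive
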