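import Mathlib

/-!
# Groups of automorphisms preserving an anisotropic quadratic map

`B` and `T` are elementary abelian `2`-groups, `s : B → T` a quadratic map with polarization `c`,
with `s x = 1` only for `x = 1`.  Then a `2`-element of the group of automorphisms preserving `s`
has order at most `2`, and an element of odd order normalizing a group of involutions
centralizes it.
-/

set_option autoImplicit false
set_option linter.all false

namespace Cfsg.Agent.Lib.OutSolv.QS

universe u

open scoped commutatorElement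

/-- An anisotropic quadratic map. -/
structure QData (B T : Type*) [CommGroup B] [CommGroup T] where
  s : B → T
  c : B → B → T
  hB : ∀ x : B, x * x = 1
  hT : ∀ t : T, t * t = 1
  hs : ∀ x y, s (x * y) = s x * s y * c x y
  hcl : ∀ x y z, c (x * y) z = c x z * c y z
  hcr : ∀ x y z, c x (y * z) = c x y * c x z
  haniso : ∀ x, s x = 1 → x = 1

namespace QData

variable {B T : Type*} [CommGroup B] [CommGroup T] (D : QData B T)

theorem eq_of_mul_one (D : QData B T) {a b : T} (h : a * b = 1) : a = b := by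
  have h1 : a = a * (b * b) := by rw [D.hT, mul_one]
  rw [h1, ← mul_assoc, h, one_mul]

theorem eq_of_mul_oneB (D : QData B T) {a b : B} (h : a * b = 1) : a = b := by
  have h1 : a = a * (b * b) := by rw [D.hB, mul_one]
  rw [h1, ← mul_assoc, h, one_mul]

theorem c_one_left (y : B) : D.c 1 y = 1 := by
  have h := D.hcl 1 1 y
  rw [mul_one] at h
  exact left_eq_mul.1 h

theorem c_one_right (y : B) : D.c y 1 = 1 := by
  have h := D.hcr y 1 1
  rw [mul_one] at h
  exact left_eq_mul.1 h

theorem s_one : D.s 1 = 1 := by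
  have h := D.hs 1 1
  rw [mul_one, c_one_left, mul_one] at h
  exact left_eq_mul.1 h

theorem c_self (x : B) : D.c x x = 1 := by
  have h := D.hs x x
  rw [D.hB, s_one, D.hT, one_mul] at h
  exact h.symm

theorem c_symm (x y : B) : D.c x y = D.c y x := by
  have h := D.c_self (x * y)
  rw [D.hcl, D.hcr, D.hcr, D.c_self, D.c_self, one_mul, mul_one] at h
  exact D.eq_of_mul_one h

/-- `g` preserves the quadratic map. -/
def Inv (g : MulAut B) : Prop := ∀ x, D.s (g x) = D.s x

variable {D}

theorem Inv.one : D.Inv 1 := fun _ => rfl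

theorem Inv.mul {g h : MulAut B} (hg : D.Inv g) (hh : D.Inv h) : D.Inv (g * h) := fun x => by
  show D.s (g (h x)) = _
  rw [hg, hh]

theorem Inv.pow {g : MulAut B} (hg : D.Inv g) (n : ℕ) : D.Inv (g ^ n) := by
  induction n with
  | zero => exact Inv.one
  | succ n ih => rw [pow_succ]; exact ih.mul hg

theorem polar {g : MulAut B} (hg : D.Inv g) (x y : B) : D.c (g x) (g y) = D.c x y := by
  have h1 := D.hs (g x) (g y)
  rw [← map_mul, hg (x * y), hg x, hg y, D.hs] at h1
  exact (mul_left_cancel h1).symm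

theorem s_D {g : MulAut B} (hg : D.Inv g) (x : B) : D.s (g x * x) = D.c x (g x * x) := by
  have h : x * (g x * x) = g x := by
    rw [mul_comm (g x), ← mul_assoc, D.hB, one_mul]
  have h1 := D.hs x (g x * x)
  rw [h, hg] at h1
  have h2 : D.s (g x * x) * D.c x (g x * x) = 1 := by
    have h3 : D.s x * (D.s (g x * x) * D.c x (g x * x)) = D.s x * 1 := by
      rw [mul_one, ← mul_assoc]
      exact h1.symm
    exact mul_left_cancel h3
  exact D.eq_of_mul_one h2

theorem c_fix {g : MulAut B} (hg : D.Inv g) {w : B} (hw : g w = w) (x : B) :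
    D.c w (g x * x) = 1 := by
  have h := polar hg w x
  rw [hw] at h
  rw [D.hcr, h, D.hT]

theorem fix_of_conj {g τ τ' : MulAut B} (hg : D.Inv g) (hτ' : D.Inv τ')
    (hgτ : ∀ x, g (τ x) = τ' (g x)) (hfix : ∀ x, τ' (τ x * x) = τ x * x) (x : B) :
    g (τ x * x) = τ x * x := by
  set d := τ x * x with hd
  have h1 : g d = τ' (g x) * g x := by rw [hd, map_mul, hgτ]
  have h2 : D.c d (g d) = 1 := by
    rw [h1]
    exact c_fix hτ' (hfix x) (g x)
  have h3 : D.s (d * g d) = 1 := by
    rw [D.hs, h2, mul_one, hg, D.hT]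
  have h4 := D.haniso _ h3
  exact (D.eq_of_mul_oneB h4).symm

theorem fix_comm {g τ : MulAut B} (hg : D.Inv g) (hτ : D.Inv τ) (h2 : ∀ x, τ (τ x) = x)
    (hc : ∀ x, g (τ x) = τ (g x)) (x : B) : g (τ x * x) = τ x * x :=
  fix_of_conj hg hτ hc (fun x => by rw [map_mul, h2, mul_comm]) x

/-- An automorphism with `g⁴ = 1` has `g² = 1`. -/
theorem sq_eq_one {g : MulAut B} (hg : D.Inv g) (h4 : g ^ 4 = 1) : g ^ 2 = 1 := by
  have hτ : D.Inv (g ^ 2) := hg.pow 2
  have h2 : ∀ x, (g ^ 2) ((g ^ 2) x) = x := by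
    intro x
    have : (g ^ 2 * g ^ 2) x = x := by
      rw [← pow_add, h4]
      rfl
    exact this
  have hc : ∀ x, g ((g ^ 2) x) = (g ^ 2) (g x) := by
    intro x
    show (g * g ^ 2) x = (g ^ 2 * g) x
    rw [← pow_succ', ← pow_succ]
  ext x
  set d := (g ^ 2) x * x with hd
  have hgd : g d = d := fix_comm hg hτ h2 hc x
  have hτx : (g ^ 2) x = x * d := by
    rw [hd, mul_comm ((g ^ 2) x), ← mul_assoc, D.hB, one_mul]
  set u := g x * x with hu
  have hgu : g u * u = d := by
    have h5 : g (g x) = (g ^ 2) x := by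
      rw [pow_two]
      rfl
    rw [hu, map_mul, h5, hd]
    have h6 : (g ^ 2) x * g x * (g x * x) = (g ^ 2) x * (g x * g x) * x := by
      simp only [mul_assoc]
    rw [h6, D.hB, mul_one]
  have h6 : D.s d = D.c u d := by
    have h7 := s_D hg u
    rwa [hgu] at h7
  have hτu : (g ^ 2) u = u := by
    rw [hu, map_mul, ← hc, hτx, map_mul, hgd]
    have h6 : g x * d * (x * d) = g x * x * (d * d) := by
      simp only [mul_assoc, mul_comm, mul_left_comm]
    rw [h6, D.hB, mul_one]
  have h8 : D.c u d = 1 := c_fix hτ hτu x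
  have h9 : d = 1 := D.haniso _ (h6.trans h8)
  have h10 : (g ^ 2) x = x := by
    rw [hτx, h9, mul_one]
  simpa using h10

section av

/-- The average over the powers of `g`. -/
noncomputable def Av (g : MulAut B) (x : B) : B := ∏ i ∈ Finset.range (orderOf g), (g ^ i) x

theorem Av_mul (g : MulAut B) (x y : B) : Av g (x * y) = Av g x * Av g y := by
  simp [Av, map_mul, Finset.prod_mul_distrib]

theorem pow_fix {g : MulAut B} {w : B} (hw : g w = w) (i : ℕ) : (g ^ i) w = w := by
  induction i with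
  | zero => rfl
  | succ n ih =>
    rw [pow_succ]
    show (g ^ n) (g w) = w
    rw [hw, ih]

variable [Finite B]

theorem Av_fix (g : MulAut B) (x : B) : g (Av g x) = Av g x := by
  haveI : Finite (MulAut B) :=
    Finite.of_injective (fun φ : MulAut B => (φ : B → B)) DFunLike.coe_injective
  have h1 : g (Av g x) = ∏ i ∈ Finset.range (orderOf g), (g ^ (i + 1)) x := by
    rw [Av, map_prod]
    refine Finset.prod_congr rfl fun i _ => ?_
    rw [pow_succ']
    rfl
  have h2 := Finset.prod_range_succ (fun i => (g ^ i) x) (orderOf g)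
  have h3 := Finset.prod_range_succ' (fun i => (g ^ i) x) (orderOf g)
  rw [h2] at h3
  simp only [pow_orderOf_eq_one, pow_zero] at h3
  rw [h1, Av]
  have h4 : (1 : MulAut B) x = x := rfl
  rw [h4] at h3
  exact (mul_right_cancel h3).symm

theorem Av_of_fix (hB : ∀ x : B, x * x = 1) {g : MulAut B} (hodd : Odd (orderOf g)) {w : B}
    (hw : g w = w) : Av g w = w := by
  rw [Av, Finset.prod_congr rfl (fun i _ => pow_fix hw i), Finset.prod_const, Finset.card_range]
  obtain ⟨k, hk⟩ := hodd
  rw [hk, pow_succ, pow_mul, pow_two, hB, one_pow, one_mul]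

theorem c_prod (D : QData B T) (w : B) {ι : Type*} (s : Finset ι) (f : ι → B) :
    D.c w (∏ i ∈ s, f i) = ∏ i ∈ s, D.c w (f i) := by
  classical
  induction s using Finset.induction_on with
  | empty => simp [c_one_right]
  | insert a s ha ih => rw [Finset.prod_insert ha, Finset.prod_insert ha, D.hcr, ih]

theorem c_of_Av_one {g : MulAut B} (hg : D.Inv g) (hodd : Odd (orderOf g)) {w z : B}
    (hw : g w = w) (hz : Av g z = 1) : D.c w z = 1 := by
  have h1 : D.c w (Av g z) = D.c w z ^ orderOf g := by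
    rw [Av, c_prod]
    have h2 : ∀ i ∈ Finset.range (orderOf g), D.c w ((g ^ i) z) = D.c w z := fun i _ => by
      have h3 : (g ^ i) w = w := pow_fix hw i
      conv_lhs => rw [← h3]
      exact polar (hg.pow i) w z
    rw [Finset.prod_congr rfl h2, Finset.prod_const, Finset.card_range]
  rw [hz, c_one_right] at h1
  obtain ⟨k, hk⟩ := hodd
  rw [hk, pow_succ, pow_mul, pow_two, D.hT, one_pow, one_mul] at h1
  exact h1.symm

/-- An automorphism of odd order preserving `s` and normalizing a group of involutions preserving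
`s` centralizes this group. -/
theorem odd_comm (P : Subgroup (MulAut B)) (hPinv : ∀ τ ∈ P, D.Inv τ)
    (hP2 : ∀ τ ∈ P, τ * τ = 1) {g : MulAut B} (hg : D.Inv g) (hodd : Odd (orderOf g))
    (hnorm : ∀ τ ∈ P, g * τ * g⁻¹ ∈ P) {τ : MulAut B} (hτ : τ ∈ P) : g * τ = τ * g := by
  have hcomm : ∀ σ ∈ P, ∀ σ' ∈ P, ∀ x, σ (σ' x) = σ' (σ x) := by
    intro σ hσ σ' hσ' x
    have h1 := hP2 _ (P.mul_mem hσ hσ')
    have h2 := hP2 _ hσ
    have h3 := hP2 _ hσ'
    have h4 : σ * σ' = σ' * σ := by
      calc σ * σ' = σ * σ' * (σ' * σ) * (σ' * σ)⁻¹ := by group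
        _ = (σ' * σ)⁻¹ := by
          have : σ * σ' * (σ' * σ) = σ * (σ' * σ') * σ := by group
          rw [this, h3, mul_one, h2, one_mul]
        _ = σ' * σ := by
          rw [inv_eq_of_mul_eq_one_left]
          have : σ' * σ * (σ' * σ) * 1 = (σ' * σ) * (σ' * σ) := by simp
          exact hP2 _ (P.mul_mem hσ' hσ)
    exact DFunLike.congr_fun h4 x
  have hinv2 : ∀ σ ∈ P, ∀ x, σ (σ x) = x := fun σ hσ x => DFunLike.congr_fun (hP2 σ hσ) x
  have F9 : ∀ σ ∈ P, ∀ x, g (σ x * x) = σ x * x := by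
    intro σ hσ x
    have hτ' := hnorm σ hσ
    refine fix_of_conj hg (hPinv _ hτ') (τ' := g * σ * g⁻¹) (fun y => ?_) (fun y => ?_) x
    · simp [MulAut.mul_apply]
    · exact fix_comm (hPinv _ hτ') (hPinv _ hσ) (hinv2 σ hσ) (hcomm _ hτ' _ hσ) y
  have F12 : ∀ σ ∈ P, ∀ z, Av g z = 1 → σ z = z := by
    intro σ hσ z hz
    have h1 := F9 σ hσ z
    have h2 : D.c (σ z * z) z = 1 := c_of_Av_one hg hodd h1 hz
    have h3 : D.s (σ z * z) = 1 := by
      rw [s_D (hPinv σ hσ), D.c_symm]
      exact h2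
    exact D.eq_of_mul_oneB (D.haniso _ h3)
  have hτ1 := hnorm τ hτ
  have key : ∀ x, (g * τ * g⁻¹) x = τ x := by
    intro x
    obtain ⟨w, hw⟩ : ∃ w, w = Av g x := ⟨_, rfl⟩
    have hgw : g w = w := by rw [hw]; exact Av_fix g x
    have hginv : g⁻¹ w = w := by
      have : g⁻¹ (g w) = w := by simp
      rwa [hgw] at this
    obtain ⟨z, hzd⟩ : ∃ z, z = x * w := ⟨_, rfl⟩
    have hz : Av g z = 1 := by
      rw [hzd, Av_mul, ← hw, Av_of_fix D.hB hodd hgw, D.hB]
    have hx : x = z * w := by
      rw [hzd, mul_assoc, D.hB, mul_one]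
    have h1 : (g * τ * g⁻¹) w = τ w := by
      show g (τ (g⁻¹ w)) = τ w
      rw [hginv]
      have h2 := F9 τ hτ w
      rw [map_mul, hgw] at h2
      exact mul_right_cancel h2
    have h2 : (g * τ * g⁻¹) (z * w) = τ (z * w) := by
      rw [map_mul, map_mul, h1, F12 _ hτ1 z hz, F12 _ hτ z hz]
    rwa [← hx] at h2
  ext x
  have := key (g x)
  simpa [MulAut.mul_apply] using this

end av

/-- A `2`-element preserving `s` has order at most `2`. -/
theorem sq_of_two_pow (k : ℕ) : ∀ {g : MulAut B}, D.Inv g → g ^ (2 ^ k) = 1 → g ^ 2 = 1 := by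
  induction k with
  | zero =>
    intro g _ h
    simp only [pow_zero, pow_one] at h
    simp [h]
  | succ k ih =>
    intro g hg h
    cases k with
    | zero => simpa using h
    | succ k =>
      have h1 : (g ^ 2) ^ (2 ^ (k + 1)) = 1 := by
        rw [← pow_mul, ← pow_succ']
        exact h
      have h2 := ih (hg.pow 2) h1
      refine sq_eq_one hg ?_
      rw [← pow_mul] at h2
      exact h2


end QData

open QData in
/-- **The main theorem on anisotropic quadratic maps.**  A perfect group of automorphisms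
preserving an anisotropic quadratic map is trivial (using the odd order theorem). -/
theorem perfect_eq_bot {B : Type u} {T : Type*} [CommGroup B] [CommGroup T] [Finite B]
    (hFT : ∀ (X : Type u) [Group X] [Finite X], Odd (Nat.card X) → Group.IsSolvable X)
    (D : QData B T) (Γ : Subgroup (MulAut B)) (hΓ : ∀ γ ∈ Γ, D.Inv γ) [hperf : Group.IsPerfect Γ] :
    Γ = ⊥ := by
  classical
  haveI : Finite (MulAut B) :=
    Finite.of_injective (fun φ : MulAut B => (φ : B → B)) DFunLike.coe_injective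
  haveI : Fact (Nat.Prime 2) := ⟨Nat.prime_two⟩
  by_contra hne
  haveI : Nontrivial Γ := (Subgroup.nontrivial_iff_ne_bot Γ).2 hne
  obtain ⟨P⟩ : Nonempty (Sylow 2 Γ) := inferInstance
  -- elements of `P` have order at most two
  have hP2 : ∀ x ∈ (P : Subgroup Γ), x * x = 1 := by
    intro x hx
    obtain ⟨k, hk⟩ := P.isPGroup' ⟨x, hx⟩
    have h1 : x ^ (2 ^ k) = 1 := by
      have := congrArg (Subtype.val) hk
      simpa using this
    have h2 : (x : MulAut B) ^ (2 ^ k) = 1 := by
      have := congrArg (Subtype.val) h1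
      simpa using this
    have h3 := sq_of_two_pow k (hΓ _ x.2) h2
    apply Subtype.ext
    simpa [pow_two] using h3
  have hPcomm : ∀ x ∈ (P : Subgroup Γ), ∀ y ∈ (P : Subgroup Γ), x * y = y * x := by
    intro x hx y hy
    have h1 := hP2 _ ((P : Subgroup Γ).mul_mem hx hy)
    have h2 := hP2 _ hx
    have h3 := hP2 _ hy
    have h5 : x⁻¹ = x := inv_eq_of_mul_eq_one_left h2
    have h6 : y⁻¹ = y := inv_eq_of_mul_eq_one_left h3
    calc x * y = (x * y)⁻¹ := (inv_eq_of_mul_eq_one_left h1).symm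
      _ = y * x := by rw [mul_inv_rev, h5, h6]
  let P' : Subgroup (MulAut B) := (P : Subgroup Γ).map Γ.subtype
  have hP'inv : ∀ τ ∈ P', D.Inv τ := by
    rintro _ ⟨x, _, rfl⟩
    exact hΓ _ x.2
  have hP'2 : ∀ τ ∈ P', τ * τ = 1 := by
    rintro _ ⟨x, hx, rfl⟩
    have := congrArg Subtype.val (hP2 x hx)
    simpa using this
  -- the normalizer of `P` centralizes `P`
  have hnorm : Subgroup.normalizer (P : Set Γ) ≤ Subgroup.centralizer (P : Set Γ) := by
    intro g hg
    obtain ⟨a, m, hm, hord⟩ : ∃ a m : ℕ, Odd m ∧ orderOf g = 2 ^ a * m := by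
      have h0 : orderOf g ≠ 0 := (orderOf_pos g).ne'
      obtain ⟨a, m, hm, hm'⟩ := Nat.exists_eq_two_pow_mul_odd h0
      exact ⟨a, m, hm, hm'⟩
    have hcop : Nat.Coprime (2 ^ a) m := Nat.Coprime.pow_left _ (Nat.coprime_two_left.2 hm)
    -- the odd part
    have hg1 : g ^ (2 ^ a) ∈ Subgroup.centralizer (P : Set Γ) := by
      rw [Subgroup.mem_centralizer_iff]
      intro h hh
      have hG : ((g ^ (2 ^ a) : Γ) : MulAut B) ∈ Γ := (g ^ (2 ^ a)).2
      have hord1 : orderOf ((g ^ (2 ^ a) : Γ) : MulAut B) = m := by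
        rw [Subgroup.orderOf_coe, orderOf_pow' _ (by positivity), hord,
          Nat.gcd_eq_right (dvd_mul_right _ _)]
        exact Nat.mul_div_cancel_left _ (by positivity)
      have hnorm1 : ∀ τ ∈ P', ((g ^ (2 ^ a) : Γ) : MulAut B) * τ * ((g ^ (2 ^ a) : Γ) : MulAut B)⁻¹ ∈ P' := by
        rintro _ ⟨x, hx, rfl⟩
        have hgp : g ^ (2 ^ a) ∈ Subgroup.normalizer (P : Set Γ) := Subgroup.pow_mem _ hg _
        refine ⟨g ^ (2 ^ a) * x * (g ^ (2 ^ a))⁻¹, ?_, rfl⟩
        exact (Subgroup.mem_normalizer_iff.1 hgp x).1 hx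
      have h1 := odd_comm P' hP'inv hP'2 (hΓ _ hG) (by rw [hord1]; exact hm) hnorm1
        (τ := ((h : Γ) : MulAut B)) ⟨h, hh, rfl⟩
      apply Subtype.ext
      exact h1.symm
    -- the `2`-part
    have hg2 : g ^ m ∈ Subgroup.centralizer (P : Set Γ) := by
      have h2 : IsPGroup 2 (Subgroup.zpowers (g ^ m)) := by
        rw [IsPGroup.iff_card, Nat.card_zpowers]
        refine ⟨a, ?_⟩
        rw [orderOf_pow' _ hm.pos.ne', hord, Nat.gcd_eq_right (dvd_mul_left _ _)]
        exact Nat.mul_div_cancel _ hm.pos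
      have h3 := h2.inf_normalizer_sylow P
      have h4 : g ^ m ∈ Subgroup.zpowers (g ^ m) ⊓ Subgroup.normalizer (P : Set Γ) :=
        ⟨Subgroup.mem_zpowers _, Subgroup.pow_mem _ hg _⟩
      rw [h3] at h4
      rw [Subgroup.mem_centralizer_iff]
      intro h hh
      exact hPcomm _ hh _ h4.2
    -- Bezout
    have hb := Nat.gcd_eq_gcd_ab (2 ^ a) m
    rw [hcop.gcd_eq_one] at hb
    have hg' : g = (g ^ (2 ^ a)) ^ (Nat.gcdA (2 ^ a) m) * (g ^ m) ^ (Nat.gcdB (2 ^ a) m) := by
      rw [← zpow_natCast, ← zpow_natCast, ← zpow_mul, ← zpow_mul, ← zpow_add, ← hb]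
      simp
    rw [hg']
    exact Subgroup.mul_mem _ (Subgroup.zpow_mem _ hg1 _) (Subgroup.zpow_mem _ hg2 _)
  -- the transfer
  let f := MonoidHom.transferSylow P hnorm
  haveI : IsMulCommutative (P : Subgroup Γ) :=
    ⟨⟨fun a b => Subtype.ext (hPcomm _ a.2 _ b.2)⟩⟩
  have hf : f.ker = ⊤ := by
    have hc : commutator Γ ≤ f.ker := by
      rw [commutator_def, Subgroup.commutator_le]
      intro x _ y _
      rw [MonoidHom.mem_ker, map_commutatorElement]
      have : ⁅f x, f y⁆ = 1 := by
        rw [commutatorElement_eq_one_iff_mul_comm]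
        exact Subtype.ext (hPcomm _ (f x).2 _ (f y).2)
      exact this
    rw [Group.IsPerfect.commutator_eq_top] at hc
    exact top_le_iff.1 hc
  have h2 : ¬ 2 ∣ Nat.card f.ker := MonoidHom.not_dvd_card_ker_transferSylow P hnorm
  rw [hf, Subgroup.card_top] at h2
  have hodd : Odd (Nat.card Γ) := Nat.odd_iff.2 (by omega)
  exact Group.IsPerfect.not_isSolvable Γ (hFT _ hodd)

namespace QData
end QData

end Cfsg.Agent.Lib.OutSolv.QS
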