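import Mathlib
import Cfsg.Agent.Lib.OutSolv.QS
import Cfsg.Agent.Lib.PGroups.Basic

/-!
# Automorphisms of a `2`-group fixing all involutions

Using the odd order theorem: a group of automorphisms of a finite `2`-group fixing all elements
`x` with `x * x = 1` is solvable.
-/

set_option autoImplicit false
set_option linter.all false

namespace Cfsg.Agent.Lib.OutSolv.TwoGroup

open Cfsg.Agent.Lib.OutSolv.QS
open scoped commutatorElement

universe u v

theorem perfect_hom_trivial {Γ : Type*} {M : Type*} [Group Γ] [Group M] [Group.IsPerfect Γ]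
    (f : Γ →* M) (h : Group.IsSolvable f.range) : f = 1 := by
  haveI : Group.IsPerfect f.range := Group.IsPerfect.range f
  by_contra hne
  have h1 : f.range ≠ ⊥ := by
    intro h2
    exact hne (MonoidHom.range_eq_bot_iff.1 h2)
  haveI : Nontrivial f.range := (Subgroup.nontrivial_iff_ne_bot _).2 h1
  exact Group.IsPerfect.not_isSolvable _ h

section stab

variable {P : Type u} [Group P] [Finite P] {Γ : Type*} [Group Γ] [Group.IsPerfect Γ]

/-- The stability lemma: if the perfect group `Γ` centralizes a `2`-subgroup `Y` of `P` and `P/Y`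
as a set, then `Γ` acts trivially. -/
theorem stab_trivial (a : Γ →* MulAut P) (h2 : IsPGroup 2 P) (Y : Subgroup P)
    (hY : ∀ γ, ∀ y ∈ Y, a γ y = y) (hs : ∀ γ r, r⁻¹ * a γ r ∈ Y) : a = 1 := by
  haveI : Fact (Nat.Prime 2) := ⟨Nat.prime_two⟩
  haveI : Finite (MulAut P) :=
    Finite.of_injective (fun φ : MulAut P => (φ : P → P)) DFunLike.coe_injective
  refine perfect_hom_trivial a ?_
  have h3 : IsPGroup 2 a.range := by
    rintro ⟨_, γ, rfl⟩
    obtain ⟨k, hk⟩ := IsPGroup.iff_card.1 (h2.to_subgroup Y)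
    refine ⟨k, ?_⟩
    apply Subtype.ext
    ext r
    have h4 : ∀ n : ℕ, (a γ ^ n) r = r * (r⁻¹ * a γ r) ^ n := by
      intro n
      induction n with
      | zero => simp
      | succ n ih =>
        rw [pow_succ', MulAut.mul_apply, ih, map_mul]
        have h5 : a γ ((r⁻¹ * a γ r) ^ n) = (r⁻¹ * a γ r) ^ n :=
          hY γ _ (Y.pow_mem (hs γ r) n)
        rw [h5, pow_succ', ← mul_assoc r, mul_inv_cancel_left]
    have h5 : (r⁻¹ * a γ r) ^ (2 ^ k) = 1 := by
      rw [← hk]
      have h6 := pow_card_eq_one' (x := (⟨r⁻¹ * a γ r, hs γ r⟩ : Y))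
      exact congrArg Subtype.val h6
    have h6 := h4 (2 ^ k)
    rw [h5, mul_one] at h6
    simpa using h6
  haveI := h3.isNilpotent
  exact IsNilpotent.to_isSolvable

end stab

section core

variable {P : Type u} [Group P] [Finite P] {Γ : Type*} [Group Γ] [Group.IsPerfect Γ]

/-- The commutator in the convenient form. -/
private def com (x y : P) : P := x⁻¹ * y * x * y⁻¹

/-- The core of Lemma Y: the quadratic map on `P/T`. -/
theorem quad_core
    (hFT : ∀ (X : Type u) [Group X] [Finite X], Odd (Nat.card X) → Group.IsSolvable X)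
    (a : Γ →* MulAut P) (T : Subgroup P)
    (hTfix : ∀ γ, ∀ t ∈ T, a γ t = t)
    (hsq : ∀ x, x * x ∈ T) (hcent : ∀ t ∈ T, ∀ x, x * t = t * x)
    (hcom : ∀ x y : P, x⁻¹ * y * x * y⁻¹ ∈ T)
    (haniso : ∀ x, ∀ t ∈ T, x * x = t * t → x ∈ T)
    {B : Type u} [CommGroup B] [Finite B] (π : P →* B) (hπ : Function.Surjective π)
    (hker : ∀ x, π x = 1 ↔ x ∈ T)
    (a' : Γ →* MulAut B) (ha' : ∀ γ x, π (a γ x) = a' γ (π x))
    {T₀ : Type*} [CommGroup T₀] (qq : P → T₀)
    (hqmul : ∀ x ∈ T, ∀ y ∈ T, qq (x * y) = qq x * qq y)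
    (hqsq : ∀ x ∈ T, qq (x * x) = 1)
    (hqker : ∀ x ∈ T, qq x = 1 → ∃ u ∈ T, x = u * u)
    (hT₀ : ∀ t : T₀, t * t = 1) (γ : Γ) (x : P) : x⁻¹ * a γ x ∈ T := by
  classical
  let sec : B → P := Function.surjInv hπ
  have hsecπ : ∀ b, π (sec b) = b := Function.surjInv_eq hπ
  have hsec : ∀ x : P, ∃ t ∈ T, sec (π x) = x * t := by
    intro x
    refine ⟨x⁻¹ * sec (π x), (hker _).1 ?_, by group⟩
    rw [map_mul, hsecπ, map_inv, inv_mul_cancel]
  have hcomT : ∀ x y : P, com x y ∈ T := hcom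
  have com_mul_left : ∀ x x' y : P, com (x * x') y = com x y * com x' y := by
    intro x x' y
    have h := hcent _ (hcomT x y) (x'⁻¹ )
    unfold com at h ⊢
    calc (x * x')⁻¹ * y * (x * x') * y⁻¹
        = x'⁻¹ * (x⁻¹ * y * x * y⁻¹) * (y * x' * y⁻¹) := by group
      _ = (x⁻¹ * y * x * y⁻¹) * x'⁻¹ * (y * x' * y⁻¹) := by rw [h]
      _ = _ := by group
  have com_mul_right : ∀ x y y' : P, com x (y * y') = com x y * com x y' := by
    intro x y y'
    have h := hcent _ (hcomT x y') (x⁻¹ * y * x)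
    unfold com at h ⊢
    calc x⁻¹ * (y * y') * x * (y * y')⁻¹
        = (x⁻¹ * y * x) * (x⁻¹ * y' * x * y'⁻¹) * y⁻¹ := by group
      _ = (x⁻¹ * y' * x * y'⁻¹) * (x⁻¹ * y * x) * y⁻¹ := by rw [h]
      _ = (x⁻¹ * y * x * y⁻¹) * (x⁻¹ * y' * x * y'⁻¹) := by
        have h2 := hcent _ (hcomT x y') (x⁻¹ * y * x * y⁻¹)
        unfold com at h2
        rw [h2]
        group
  have com_t_left : ∀ t ∈ T, ∀ y : P, com t y = 1 := by
    intro t ht y
    have h := hcent t ht y
    unfold com
    calc t⁻¹ * y * t * y⁻¹ = t⁻¹ * (y * t) * y⁻¹ := by group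
      _ = 1 := by rw [h]; group
  have com_t_right : ∀ x : P, ∀ t ∈ T, com x t = 1 := by
    intro x t ht
    have h := hcent t ht x
    unfold com
    calc x⁻¹ * t * x * t⁻¹ = x⁻¹ * (t * x) * t⁻¹ := by group
      _ = 1 := by rw [← h]; group
  let s : B → T₀ := fun b => qq (sec b * sec b)
  let c : B → B → T₀ := fun b b' => qq (com (sec b) (sec b'))
  have s_mk : ∀ x : P, s (π x) = qq (x * x) := by
    intro x
    obtain ⟨t, ht, h⟩ := hsec x
    show qq (sec (π x) * sec (π x)) = _
    have h1 : sec (π x) * sec (π x) = (x * x) * (t * t) := by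
      rw [h]
      have := hcent t ht x
      calc x * t * (x * t) = x * (t * x) * t := by group
        _ = x * (x * t) * t := by rw [this]
        _ = _ := by group
    rw [h1, hqmul _ (hsq x) _ (hsq t), hqsq t ht, mul_one]
  have c_mk : ∀ x y : P, c (π x) (π y) = qq (com x y) := by
    intro x y
    obtain ⟨t, ht, h⟩ := hsec x
    obtain ⟨u, hu, h'⟩ := hsec y
    show qq (com (sec (π x)) (sec (π y))) = _
    rw [h, h', com_mul_left, com_mul_right, com_mul_right, com_t_left t ht, com_t_left t ht,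
      com_t_right x u hu]
    simp
  have hB : ∀ b : B, b * b = 1 := by
    intro b
    obtain ⟨x, rfl⟩ := hπ b
    rw [← map_mul]
    exact (hker _).2 (hsq x)
  have hsq_mul : ∀ x y : P, x * y * (x * y) = x * x * (y * y) * com x y := by
    intro x y
    have h := hcent _ (hcomT x y) (y * y)
    unfold com at h ⊢
    rw [mul_assoc (x * x), h]
    group
  let D : QData B T₀ :=
    { s := s
      c := c
      hB := hB
      hT := hT₀
      hs := by
        intro b b'
        obtain ⟨x, rfl⟩ := hπ b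
        obtain ⟨y, rfl⟩ := hπ b'
        rw [← map_mul, s_mk, s_mk, s_mk, c_mk, hsq_mul,
          hqmul _ (T.mul_mem (hsq x) (hsq y)) _ (hcomT x y), hqmul _ (hsq x) _ (hsq y)]
      hcl := by
        intro b b' b''
        obtain ⟨x, rfl⟩ := hπ b
        obtain ⟨y, rfl⟩ := hπ b'
        obtain ⟨z, rfl⟩ := hπ b''
        rw [← map_mul, c_mk, c_mk, c_mk, com_mul_left, hqmul _ (hcomT _ _) _ (hcomT _ _)]
      hcr := by
        intro b b' b''
        obtain ⟨x, rfl⟩ := hπ b
        obtain ⟨y, rfl⟩ := hπ b'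
        obtain ⟨z, rfl⟩ := hπ b''
        rw [← map_mul, c_mk, c_mk, c_mk, com_mul_right, hqmul _ (hcomT _ _) _ (hcomT _ _)]
      haniso := by
        intro b hb
        obtain ⟨x, rfl⟩ := hπ b
        rw [s_mk] at hb
        obtain ⟨u, hu, h⟩ := hqker _ (hsq x) hb
        exact (hker x).2 (haniso x u hu h) }
  have hinv : ∀ γ' ∈ a'.range, D.Inv γ' := by
    rintro _ ⟨δ, rfl⟩ b
    obtain ⟨y, rfl⟩ := hπ b
    show s (a' δ (π y)) = s (π y)
    rw [← ha', s_mk, s_mk, ← map_mul, hTfix δ _ (hsq y)]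
  haveI : Group.IsPerfect a'.range := Group.IsPerfect.range a'
  have h := perfect_eq_bot hFT D a'.range hinv
  have h1 : a' γ = 1 := by
    have h2 : a' γ ∈ a'.range := ⟨γ, rfl⟩
    rw [h] at h2
    exact (Subgroup.mem_bot).1 h2
  refine (hker _).1 ?_
  rw [map_mul, ha', h1, map_inv]
  exact inv_mul_cancel _

end core

section lemmaY

variable {P : Type u} [Group P] [Finite P] {Γ : Type*} [Group Γ] [Group.IsPerfect Γ]

/-- The induced action on a quotient. -/
noncomputable def barAct (a : Γ →* MulAut P) (T : Subgroup P) [T.Normal]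
    (hT : ∀ γ, T.map (a γ).toMonoidHom = T) : Γ →* MulAut (P ⧸ T) where
  toFun γ := QuotientGroup.congr T T (a γ) (hT γ)
  map_one' := by
    ext q
    obtain ⟨x, rfl⟩ := QuotientGroup.mk_surjective q
    simp
  map_mul' := fun c d => by
    ext q
    obtain ⟨x, rfl⟩ := QuotientGroup.mk_surjective q
    simp
    rfl

theorem barAct_mk (a : Γ →* MulAut P) (T : Subgroup P) [T.Normal]
    (hT : ∀ γ, T.map (a γ).toMonoidHom = T) (γ : Γ) (x : P) :
    barAct a T hT γ (x : P ⧸ T) = ((a γ x : P) : P ⧸ T) := rfl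

/-- The quotient of a central subgroup by its squares. -/
theorem exists_square_quotient (T : Subgroup P) (hcomm : ∀ u ∈ T, ∀ v ∈ T, u * v = v * u) :
    ∃ (T₀ : Type u) (_ : CommGroup T₀) (qq : P → T₀),
      (∀ x ∈ T, ∀ y ∈ T, qq (x * y) = qq x * qq y) ∧
      (∀ x ∈ T, qq (x * x) = 1) ∧
      (∀ x ∈ T, qq x = 1 → ∃ u ∈ T, x = u * u) ∧
      (∀ t : T₀, t * t = 1) := by
  classical
  letI instT : CommGroup ↥T :=
    { T.toGroup with mul_comm := fun u v => Subtype.ext (hcomm _ u.2 _ v.2) }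
  let K : Subgroup ↥T := (powMonoidHom 2 : ↥T →* ↥T).range
  let qq : P → ↥T ⧸ K := fun x => if h : x ∈ T then ((⟨x, h⟩ : ↥T) : ↥T ⧸ K) else 1
  have hqq : ∀ x (h : x ∈ T), qq x = ((⟨x, h⟩ : ↥T) : ↥T ⧸ K) := fun x h => dif_pos h
  refine ⟨↥T ⧸ K, inferInstance, qq, ?_, ?_, ?_, ?_⟩
  · intro x hx y hy
    rw [hqq x hx, hqq y hy, hqq _ (T.mul_mem hx hy)]
    rfl
  · intro x hx
    rw [hqq _ (T.mul_mem hx hx)]
    refine (QuotientGroup.eq_one_iff _).2 ⟨⟨x, hx⟩, ?_⟩
    apply Subtype.ext
    show x ^ 2 = x * x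
    rw [pow_two]
  · intro x hx h
    rw [hqq x hx] at h
    obtain ⟨u, hu⟩ := (QuotientGroup.eq_one_iff _).1 h
    refine ⟨u, u.2, ?_⟩
    have h1 := congrArg Subtype.val hu
    have h2 : ((u : P)) ^ 2 = x := h1
    rw [← h2, pow_two]
  · intro t
    obtain ⟨u, rfl⟩ := QuotientGroup.mk_surjective t
    rw [← QuotientGroup.mk_mul]
    refine (QuotientGroup.eq_one_iff _).2 ⟨u, ?_⟩
    show u ^ 2 = u * u
    rw [pow_two]

/-- **Lemma Y.** -/
theorem lemmaY
    (hFT : ∀ (X : Type u) [Group X] [Finite X], Odd (Nat.card X) → Group.IsSolvable X)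
    (a : Γ →* MulAut P) (h2 : IsPGroup 2 P)
    (hi : ∀ γ x, x * x = 1 → a γ x = x)
    (hp : ∀ U : Subgroup P, U ≠ ⊤ → (∀ γ, ∀ x ∈ U, a γ x ∈ U) → ∀ γ, ∀ x ∈ U, a γ x = x) :
    a = 1 := by
  classical
  haveI : Fact (Nat.Prime 2) := ⟨Nat.prime_two⟩
  by_contra hne
  haveI : Nontrivial P := by
    by_contra h
    rw [not_nontrivial_iff_subsingleton] at h
    apply hne
    ext γ x
    exact Subsingleton.elim _ _
  let 𝒮 : Set (Subgroup P) := {U | U ≠ ⊤ ∧ ∀ γ, ∀ x ∈ U, a γ x ∈ U}
  have hfin : 𝒮.Finite := Set.toFinite _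
  have hnonempty : 𝒮.Nonempty := ⟨⊥, bot_ne_top, by
    intro γ x hx
    rw [Subgroup.mem_bot] at hx ⊢
    rw [hx, map_one]⟩
  obtain ⟨T, hT⟩ := hfin.exists_maximal hnonempty
  have hTne : T ≠ ⊤ := hT.prop.1
  have hTinv := hT.prop.2
  have hTmax : ∀ U : Subgroup P, T ≤ U → (∀ γ, ∀ x ∈ U, a γ x ∈ U) → U ≠ ⊤ → U ≤ T :=
    fun U hU hinv hne => hT.le_of_ge ⟨hne, hinv⟩ hU
  have hTfix := hp T hTne hTinv
  have hΦ : frattini P ≤ T := by
    have h1 : T ⊔ frattini P ≠ ⊤ := fun h => hTne (frattini_nongenerating h)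
    have h3 : ∀ γ, ∀ x ∈ T ⊔ frattini P, a γ x ∈ T ⊔ frattini P := by
      intro γ
      have h5 : T ⊔ frattini P ≤ (T ⊔ frattini P).comap (a γ).toMonoidHom := by
        refine sup_le (fun t ht => Subgroup.mem_sup_left (hTinv γ t ht))
          (fun z hz => Subgroup.mem_sup_right ?_)
        have h4 := Subgroup.characteristic_iff_comap_eq.mp
          (inferInstance : (frattini P).Characteristic) (a γ)
        rw [← h4] at hz
        exact hz
      exact h5
    exact le_trans le_sup_right (hTmax _ le_sup_left h3 h1)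
  have hsq : ∀ x : P, x * x ∈ T := fun x =>
    hΦ (by simpa [pow_two] using Cfsg.Agent.Lib.PGroups.Basic.pow_mem_frattini h2 x)
  have hcomm : ∀ x y : P, x⁻¹ * y * x * y⁻¹ ∈ T := by
    intro x y
    apply hΦ
    apply Cfsg.Agent.Lib.PGroups.Basic.commutator_le_frattini h2
    have h3 : x⁻¹ * y * x * y⁻¹ = ⁅x⁻¹, y⁆ := by simp [commutatorElement_def]
    rw [h3, commutator_def]
    exact Subgroup.commutator_mem_commutator trivial trivial
  haveI hTn : T.Normal := ⟨fun t ht n => by
    have h3 := T.mul_mem (hcomm n⁻¹ t) ht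
    simpa [mul_assoc] using h3⟩
  have hcentr : Subgroup.centralizer (T : Set P) = ⊤ := by
    by_contra hYne
    have hYinv : ∀ γ, ∀ x ∈ Subgroup.centralizer (T : Set P), a γ x ∈ Subgroup.centralizer (T : Set P) := by
      intro γ x hx
      rw [Subgroup.mem_centralizer_iff] at hx ⊢
      intro t ht
      have h3 := congrArg (a γ) (hx t ht)
      rwa [map_mul, map_mul, hTfix γ t ht] at h3
    have hYfix := hp _ hYne hYinv
    refine hne (stab_trivial a h2 _ hYfix (fun γ r => ?_))
    rw [Subgroup.mem_centralizer_iff]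
    intro t ht
    have h3 : r * t * r⁻¹ ∈ T := hTn.conj_mem t ht r
    have h4 := hTfix γ _ h3
    rw [map_mul, map_mul, map_inv, hTfix γ t ht] at h4
    have h5 : a γ r * t = r * t * r⁻¹ * a γ r := by
      rw [← h4]
      group
    rw [mul_assoc r⁻¹, h5]
    group
  have hcent : ∀ t ∈ T, ∀ x, x * t = t * x := by
    intro t ht x
    have h3 : x ∈ Subgroup.centralizer (T : Set P) := by
      rw [hcentr]
      trivial
    exact (Subgroup.mem_centralizer_iff.1 h3 t ht).symm
  let U₁ : Subgroup P :=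
    { carrier := {x | ∀ γ, x⁻¹ * a γ x ∈ T}
      one_mem' := by
        intro γ
        simp [T.one_mem]
      mul_mem' := by
        intro x y hx hy γ
        have h3 := hx γ
        have h4 := hy γ
        have h5 : (x * y)⁻¹ * a γ (x * y) = (x⁻¹ * a γ x) * (y⁻¹ * a γ y) := by
          rw [map_mul]
          have h6 := hcent _ h3 y⁻¹
          calc (x * y)⁻¹ * (a γ x * a γ y) = y⁻¹ * (x⁻¹ * a γ x) * a γ y := by group
            _ = _ := by rw [h6]; group
        rw [h5]
        exact T.mul_mem h3 h4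
      inv_mem' := by
        intro x hx γ
        have h3 := hx γ
        have h4 : (x⁻¹)⁻¹ * a γ x⁻¹ = x * (x⁻¹ * a γ x)⁻¹ * x⁻¹ := by
          rw [map_inv]
          group
        rw [h4]
        exact hTn.conj_mem _ (T.inv_mem h3) x }
  have hTU₁ : T ≤ U₁ := by
    intro t ht γ
    rw [hTfix γ t ht, inv_mul_cancel]
    exact T.one_mem
  have hU₁inv : ∀ γ, ∀ x ∈ U₁, a γ x ∈ U₁ := by
    intro γ x hx
    have h3 : a γ x = x * (x⁻¹ * a γ x) := by group
    rw [h3]
    exact U₁.mul_mem hx (hTU₁ (hx γ))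
  have hU₁ne : U₁ ≠ ⊤ := by
    intro h
    refine hne (stab_trivial a h2 T hTfix (fun γ r => ?_))
    have h3 : r ∈ U₁ := by
      rw [h]
      trivial
    exact h3 γ
  have hU₁T := hTmax U₁ hTU₁ hU₁inv hU₁ne
  have haniso : ∀ x, ∀ t ∈ T, x * x = t * t → x ∈ T := by
    intro x t ht h
    apply hU₁T
    intro γ
    have h3 : (x * t⁻¹) * (x * t⁻¹) = 1 := by
      have h4 := hcent _ (T.inv_mem ht) x
      calc (x * t⁻¹) * (x * t⁻¹) = x * (t⁻¹ * x) * t⁻¹ := by group
        _ = x * (x * t⁻¹) * t⁻¹ := by rw [h4]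
        _ = (x * x) * t⁻¹ * t⁻¹ := by group
        _ = 1 := by rw [h]; group
    have h4 := hi γ _ h3
    rw [map_mul, map_inv, hTfix γ t ht] at h4
    rw [mul_right_cancel h4, inv_mul_cancel]
    exact T.one_mem
  obtain ⟨T₀, instT₀, qq, hqmul, hqsq, hqker, hT₀⟩ := exists_square_quotient T
    (fun u _ v hv => hcent v hv u)
  have hTmap : ∀ γ, T.map (a γ).toMonoidHom = T := by
    intro γ
    ext x
    constructor
    · rintro ⟨t, ht, rfl⟩
      show a γ t ∈ T
      rw [hTfix γ t ht]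
      exact ht
    · intro hx
      exact ⟨x, hx, hTfix γ x hx⟩
  letI instB : CommGroup (P ⧸ T) :=
    { (inferInstance : Group (P ⧸ T)) with
      mul_comm := fun u v => by
        obtain ⟨x, rfl⟩ := QuotientGroup.mk_surjective u
        obtain ⟨y, rfl⟩ := QuotientGroup.mk_surjective v
        rw [← QuotientGroup.mk_mul, ← QuotientGroup.mk_mul, QuotientGroup.eq]
        have h3 := hcomm y x⁻¹
        have h4 : (x * y)⁻¹ * (y * x) = y⁻¹ * x⁻¹ * y * x⁻¹⁻¹ := by group
        rw [h4]
        exact h3 }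
  refine hne (stab_trivial a h2 T hTfix (fun γ r => ?_))
  exact quad_core hFT a T hTfix hsq hcent hcomm haniso (B := P ⧸ T) (QuotientGroup.mk' T)
    (QuotientGroup.mk'_surjective T) (fun x => QuotientGroup.eq_one_iff x)
    (barAct a T hTmap) (fun γ x => rfl) qq hqmul hqsq hqker hT₀ γ r

end lemmaY

section thmX

/-- The action on an invariant subgroup. -/
def restrAct {P : Type u} [Group P] {Γ : Type v} [Group Γ] (a : Γ →* MulAut P) (U : Subgroup P)
    (hinv : ∀ γ, ∀ x ∈ U, a γ x ∈ U) : Γ →* MulAut U where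
  toFun γ :=
    { toFun := fun x => ⟨a γ x, hinv γ x x.2⟩
      invFun := fun x => ⟨a γ⁻¹ x, hinv γ⁻¹ x x.2⟩
      left_inv := fun x => by
        apply Subtype.ext
        show a γ⁻¹ (a γ x) = x
        rw [← MulAut.mul_apply, ← map_mul]
        simp
      right_inv := fun x => by
        apply Subtype.ext
        show a γ (a γ⁻¹ x) = x
        rw [← MulAut.mul_apply, ← map_mul]
        simp
      map_mul' := fun x y => by
        apply Subtype.ext
        simp }
  map_one' := by
    ext x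
    simp
  map_mul' := fun c d => by
    ext x
    simp

theorem perfect_trivial_aux
    (hFT : ∀ (X : Type u) [Group X] [Finite X], Odd (Nat.card X) → Group.IsSolvable X)
    {Γ : Type v} [Group Γ] [Group.IsPerfect Γ] (n : ℕ) :
    ∀ (P : Type u) [Group P] [Finite P], Nat.card P ≤ n → IsPGroup 2 P →
      ∀ a : Γ →* MulAut P, (∀ γ x, x * x = 1 → a γ x = x) → a = 1 := by
  induction n with
  | zero =>
    intro P _ _ h
    have := Nat.card_pos (α := P)
    omega
  | succ n ih =>
    intro P _ _ hcard h2 a hi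
    refine lemmaY hFT a h2 hi ?_
    intro U hU hinv γ x hx
    have hlt : Nat.card U < Nat.card P := by
      have h3 := Cfsg.Agent.Lib.PGroups.Basic.card_lt_of_lt (lt_top_iff_ne_top.2 hU)
      rwa [Subgroup.card_top] at h3
    have h3 := ih U (by omega) (h2.to_subgroup U) (restrAct a U hinv) (by
      intro δ y hy
      apply Subtype.ext
      exact hi δ y (congrArg Subtype.val hy))
    have h4 := DFunLike.congr_fun (DFunLike.congr_fun h3 γ) ⟨x, hx⟩
    exact congrArg Subtype.val h4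

/-- **Theorem X.**  A group of automorphisms of a finite `2`-group fixing all elements with
`x * x = 1` is solvable. -/
theorem solvable_of_fix
    (hFT : ∀ (X : Type u) [Group X] [Finite X], Odd (Nat.card X) → Group.IsSolvable X)
    {P : Type u} [Group P] [Finite P] (h2 : IsPGroup 2 P) (Q : Subgroup (MulAut P))
    (hQ : ∀ φ ∈ Q, ∀ x, x * x = 1 → φ x = x) : Group.IsSolvable Q := by
  haveI : Finite (MulAut P) :=
    Finite.of_injective (fun φ : MulAut P => (φ : P → P)) DFunLike.coe_injective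
  obtain ⟨n, hn⟩ : ∃ n, derivedSeries Q (n + 1) = derivedSeries Q n := by
    by_contra hcon
    push_neg at hcon
    have h1 : ∀ n, n + Nat.card (derivedSeries Q n) ≤ Nat.card (⊤ : Subgroup Q) := by
      intro n
      induction n with
      | zero =>
        simp
      | succ n ih =>
        have h3 : derivedSeries Q (n + 1) < derivedSeries Q n := by
          refine lt_of_le_of_ne ?_ (hcon n)
          rw [derivedSeries_succ]
          exact Subgroup.commutator_le_self _
        have h4 := Cfsg.Agent.Lib.PGroups.Basic.card_lt_of_lt h3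
        omega
    have h2 := h1 (Nat.card (⊤ : Subgroup Q) + 1)
    omega
  haveI hperf : Group.IsPerfect (derivedSeries Q n) := by
    rw [Subgroup.isPerfect_iff, ← derivedSeries_succ]
    exact hn
  let a : derivedSeries Q n →* MulAut P := Q.subtype.comp (derivedSeries Q n).subtype
  have h1 : a = 1 := perfect_trivial_aux hFT (Nat.card P) P le_rfl h2 a (fun γ x hx =>
    hQ _ (γ : Q).2 x hx)
  rw [isSolvable_def]
  refine ⟨n, ?_⟩
  rw [eq_bot_iff]
  intro x hx
  have h3 := DFunLike.congr_fun h1 ⟨x, hx⟩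
  rw [Subgroup.mem_bot]
  exact Subtype.ext h3

end thmX

end Cfsg.Agent.Lib.OutSolv.TwoGroup
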