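import Mathlib
import Cfsg.Agent.Lib.OutSolv.Transitive
import Cfsg.Agent.Lib.OutSolv.TwoGroup

/-!
# Solvability of `Out(G)` from properties of a Sylow `2`-subgroup
-/

set_option autoImplicit false
set_option linter.all false

namespace Cfsg.Agent.Lib.OutSolv.Main

open Cfsg Pointwise Cfsg.Agent.Lib.OutSolv.Base Cfsg.Agent.Lib.OutSolv.Frat
  Cfsg.Agent.Lib.OutSolv.Transitive Cfsg.Agent.Lib.OutSolv.TwoGroup

universe u

variable {G : Type u} [Group G] [Finite G]

section caseAB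

theorem case_a (S : Sylow 2 G) (hF : Group.IsSolvable (fixAut (S : Subgroup G)))
    (a b : ↥(S : Subgroup G))
    (h : Subgroup.closure ({a, b} : Set ↥(S : Subgroup G)) = ⊤) : Group.IsSolvable (Out G) := by
  classical
  obtain ⟨r, hr⟩ := exists_rank S
  have h1 := card_frat_le S {a, b} (by simpa using h)
  have h2 : ({a, b} : Finset ↥(S : Subgroup G)).card ≤ 2 := Finset.card_le_two
  have h3 : 2 ^ r ≤ 2 ^ 2 := by
    rw [← hr]
    exact h1.trans (Nat.pow_le_pow_right (by norm_num) h2)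
  have h4 : r ≤ 2 := (Nat.pow_le_pow_iff_right (by norm_num)).1 h3
  exact out_solvable_of_rank_le_two S hF hr h4

theorem case_b (S : Sylow 2 G) (hF : Group.IsSolvable (fixAut (S : Subgroup G)))
    (a b c : ↥(S : Subgroup G))
    (h : Subgroup.closure ({a, b, c} : Set ↥(S : Subgroup G)) = ⊤)
    (g : G) (hg : g ∈ Subgroup.normalizer ((S : Subgroup G) : Set G)) (hodd : Odd (orderOf g))
    (hgc : g ∉ Subgroup.centralizer ((S : Subgroup G) : Set G)) : Group.IsSolvable (Out G) := by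
  classical
  obtain ⟨r, hr⟩ := exists_rank S
  have h1 := card_frat_le S {a, b, c} (by simpa using h)
  have h2 : ({a, b, c} : Finset ↥(S : Subgroup G)).card ≤ 3 := Finset.card_le_three
  have h3 : 2 ^ r ≤ 2 ^ 3 := by
    rw [← hr]
    exact h1.trans (Nat.pow_le_pow_right (by norm_num) h2)
  have h4 : r ≤ 3 := (Nat.pow_le_pow_iff_right (by norm_num)).1 h3
  rcases Nat.lt_or_ge r 3 with h5 | h5
  · exact out_solvable_of_rank_le_two S hF hr (by omega)
  · have h6 : r = 3 := by omega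
    subst h6
    exact out_solvable_of_rank_three S hF hr g hg hodd hgc

end caseAB

section caseC

/-- The subgroup of elements of order dividing two of `S`, if these commute. -/
def Ohm (S : Subgroup G) (hc : ∀ x ∈ S, ∀ y ∈ S, x * x = 1 → y * y = 1 → x * y = y * x) :
    Subgroup G where
  carrier := {x | x ∈ S ∧ x * x = 1}
  one_mem' := ⟨S.one_mem, one_mul 1⟩
  mul_mem' := by
    rintro x y ⟨hx, hx2⟩ ⟨hy, hy2⟩
    refine ⟨S.mul_mem hx hy, ?_⟩
    calc x * y * (x * y) = x * (y * x) * y := by group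
      _ = x * (x * y) * y := by rw [hc y hy x hx hy2 hx2]
      _ = (x * x) * (y * y) := by group
      _ = 1 := by rw [hx2, hy2, one_mul]
  inv_mem' := by
    rintro x ⟨hx, hx2⟩
    refine ⟨S.inv_mem hx, ?_⟩
    rw [← mul_inv_rev, hx2, inv_one]

variable {S : Subgroup G} {hc : ∀ x ∈ S, ∀ y ∈ S, x * x = 1 → y * y = 1 → x * y = y * x}

theorem mem_Ohm {x : G} : x ∈ Ohm S hc ↔ x ∈ S ∧ x * x = 1 := Iff.rfl

/-- A `2`-subgroup containing `Ω` has no further elements of order `2`. -/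
theorem ohm_eq (S : Sylow 2 G)
    {hc : ∀ x ∈ (S : Subgroup G), ∀ y ∈ (S : Subgroup G), x * x = 1 → y * y = 1 → x * y = y * x}
    (A : Subgroup G) (hA : IsPGroup 2 A) (hE : Ohm (S : Subgroup G) hc ≤ A) (x : G) (hx : x ∈ A)
    (hx2 : x * x = 1) : x ∈ Ohm (S : Subgroup G) hc := by
  haveI : Fact (Nat.Prime 2) := ⟨Nat.prime_two⟩
  obtain ⟨S₁, hS₁⟩ := hA.exists_le_sylow
  obtain ⟨k, hk⟩ := MulAction.exists_smul_eq G S S₁
  have hmem : ∀ y, y ∈ (S₁ : Subgroup G) → y * y = 1 → k⁻¹ * y * k ∈ Ohm (S : Subgroup G) hc := by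
    intro y hy hy2
    refine ⟨?_, ?_⟩
    · rw [← hk, Sylow.smul_def, Sylow.pointwise_smul_def,
        Subgroup.mem_pointwise_smul_iff_inv_smul_mem] at hy
      have h1 : (MulAut.conj k)⁻¹ • y = k⁻¹ * y * k := by
        rw [MulAut.smul_def, MulAut.conj_inv_apply]
      rwa [h1] at hy
    · calc k⁻¹ * y * k * (k⁻¹ * y * k) = k⁻¹ * (y * y) * k := by group
        _ = 1 := by rw [hy2]; group
  let E := Ohm (S : Subgroup G) hc
  let E₁ : Subgroup G := E.map (MulAut.conj k).toMonoidHom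
  have hEE₁ : E ≤ E₁ := by
    intro y hy
    refine ⟨k⁻¹ * y * k, hmem y (hS₁ (hE hy)) hy.2, ?_⟩
    show k * (k⁻¹ * y * k) * k⁻¹ = y
    group
  have hcard : Nat.card E₁ = Nat.card E :=
    Subgroup.card_map_of_injective (MulEquiv.injective _)
  have hEq : E = E₁ := Subgroup.eq_of_le_of_card_ge hEE₁ (by rw [hcard])
  have h1 : x ∈ E₁ := ⟨k⁻¹ * x * k, hmem x (hS₁ hx) hx2, by
    show k * (k⁻¹ * x * k) * k⁻¹ = x
    group⟩
  rw [← hEq] at h1
  exact h1

/-- Transitivity of the normalizer of `Ω`. -/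
theorem exists_normalizer_conj (S : Sylow 2 G)
    {hc : ∀ x ∈ (S : Subgroup G), ∀ y ∈ (S : Subgroup G), x * x = 1 → y * y = 1 → x * y = y * x}
    {a b g : G} (ha : a ∈ Ohm (S : Subgroup G) hc) (hb : b ∈ Ohm (S : Subgroup G) hc)
    (hg : g * a * g⁻¹ = b) :
    ∃ h ∈ Subgroup.normalizer ((Ohm (S : Subgroup G) hc : Subgroup G) : Set G), h * a * h⁻¹ = b := by
  classical
  haveI : Fact (Nat.Prime 2) := ⟨Nat.prime_two⟩
  let E := Ohm (S : Subgroup G) hc
  have hE2 : IsPGroup 2 E := S.isPGroup'.to_le (fun x hx => hx.1)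
  have hEc : ∀ x ∈ E, ∀ y ∈ E, x * y = y * x := fun x hx y hy => hc x hx.1 y hy.1 hx.2 hy.2
  let H : Subgroup G := Subgroup.centralizer {b}
  have hmemH : ∀ x, x ∈ H ↔ x * b = b * x := by
    intro x
    rw [Subgroup.mem_centralizer_iff]
    constructor
    · intro h
      exact (h b rfl).symm
    · rintro h _ rfl
      exact h.symm
  let E' : Subgroup G := E.map (MulAut.conj g).toMonoidHom
  have hE'2 : IsPGroup 2 E' := hE2.map _
  have hEH : E ≤ H := fun x hx => (hmemH x).2 (hEc x hx b hb)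
  have hE'H : E' ≤ H := by
    rintro _ ⟨x, hx, rfl⟩
    refine (hmemH _).2 ?_
    show g * x * g⁻¹ * b = b * (g * x * g⁻¹)
    rw [← hg]
    have h1 := hEc x hx a ha
    calc g * x * g⁻¹ * (g * a * g⁻¹) = g * (x * a) * g⁻¹ := by group
      _ = g * (a * x) * g⁻¹ := by rw [h1]
      _ = _ := by group
  have hP1 : IsPGroup 2 (E.subgroupOf H) := fun x => by
    obtain ⟨k, hk⟩ := hE2 ⟨x.1.1, x.2⟩
    refine ⟨k, Subtype.ext (Subtype.ext ?_)⟩
    exact congrArg (fun w : E => (w : G)) hk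
  have hP2 : IsPGroup 2 (E'.subgroupOf H) := fun x => by
    obtain ⟨k, hk⟩ := hE'2 ⟨x.1.1, x.2⟩
    refine ⟨k, Subtype.ext (Subtype.ext ?_)⟩
    exact congrArg (fun w : E' => (w : G)) hk
  obtain ⟨T₁, hT₁⟩ := hP1.exists_le_sylow
  obtain ⟨T₂, hT₂⟩ := hP2.exists_le_sylow
  obtain ⟨c, hc'⟩ := MulAction.exists_smul_eq H T₁ T₂
  have hcb : (c : G) * b = b * c := (hmemH _).1 c.2
  let A₁ : Subgroup G := (T₁ : Subgroup H).map H.subtype
  have hA₁ : IsPGroup 2 A₁ := T₁.isPGroup'.map H.subtype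
  have hEA₁ : E ≤ A₁ := fun x hx => ⟨⟨x, hEH hx⟩, hT₁ hx, rfl⟩
  refine ⟨(c : G)⁻¹ * g, ?_, ?_⟩
  · refine Subgroup.mem_normalizer_fintype ?_
    intro x hx
    have hy : g * x * g⁻¹ ∈ E' := ⟨x, hx, rfl⟩
    have h1 : (⟨g * x * g⁻¹, hE'H hy⟩ : H) ∈ (T₂ : Subgroup H) := hT₂ hy
    rw [← hc', Sylow.smul_def, Sylow.pointwise_smul_def,
      Subgroup.mem_pointwise_smul_iff_inv_smul_mem] at h1
    have h2 : ((MulAut.conj c)⁻¹ • (⟨g * x * g⁻¹, hE'H hy⟩ : H) : H) =
        c⁻¹ * ⟨g * x * g⁻¹, hE'H hy⟩ * c := by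
      rw [MulAut.smul_def, MulAut.conj_inv_apply]
    rw [h2] at h1
    have h3 : (c : G)⁻¹ * (g * x * g⁻¹) * c ∈ A₁ := ⟨_, h1, rfl⟩
    have hx2 : x * x = 1 := hx.2
    have h4 := ohm_eq S A₁ hA₁ hEA₁ _ h3 (by
      calc (c : G)⁻¹ * (g * x * g⁻¹) * c * ((c : G)⁻¹ * (g * x * g⁻¹) * c)
          = (c : G)⁻¹ * g * (x * x) * g⁻¹ * c := by group
        _ = 1 := by rw [hx2]; group)
    have h5 : ((c : G)⁻¹ * g) * x * ((c : G)⁻¹ * g)⁻¹ = (c : G)⁻¹ * (g * x * g⁻¹) * c := by group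
    rw [h5]
    exact h4
  · calc ((c : G)⁻¹ * g) * a * ((c : G)⁻¹ * g)⁻¹ = (c : G)⁻¹ * (g * a * g⁻¹) * c := by group
      _ = (c : G)⁻¹ * b * c := by rw [hg]
      _ = b := by rw [mul_assoc, ← hcb]; group

/-- An automorphism mapping a subgroup into itself stabilizes it. -/
theorem mem_stabAut_of_le (X : Subgroup G) (φ : MulAut G) (h : ∀ x ∈ X, φ x ∈ X) :
    φ ∈ stabAut X := by
  intro x
  refine ⟨fun hx => ?_, fun hx => h x hx⟩
  let f : X → X := fun y => ⟨φ y, h y y.2⟩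
  have hf : Function.Injective f := fun a b hab => by
    have h1 : φ a = φ b := congrArg Subtype.val hab
    exact Subtype.ext (φ.injective h1)
  obtain ⟨y, hy⟩ := Finite.surjective_of_injective hf ⟨φ x, hx⟩
  have h1 : φ y = φ x := congrArg Subtype.val hy
  rw [← φ.injective h1]
  exact y.2

/-- An automorphism fixing `Ω` pointwise is, modulo conjugation by the centralizer of `Ω`, in the
stabilizer of `S`. -/
theorem fix_to_stab (S : Sylow 2 G)
    {hc : ∀ x ∈ (S : Subgroup G), ∀ y ∈ (S : Subgroup G), x * x = 1 → y * y = 1 → x * y = y * x}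
    (c : MulAut G) (hcf : c ∈ fixAut (Ohm (S : Subgroup G) hc)) :
    ∃ z : G, (∀ x ∈ Ohm (S : Subgroup G) hc, z * x = x * z) ∧
      (MulAut.conj z)⁻¹ * c ∈ stabAut (S : Subgroup G) := by
  classical
  haveI : Fact (Nat.Prime 2) := ⟨Nat.prime_two⟩
  let E := Ohm (S : Subgroup G) hc
  have hsE : ∀ s ∈ (S : Subgroup G), ∀ x ∈ E, s * x * s⁻¹ ∈ E := by
    intro s hs x hx
    refine ⟨(S : Subgroup G).mul_mem ((S : Subgroup G).mul_mem hs hx.1) ((S : Subgroup G).inv_mem hs), ?_⟩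
    have hx2 : x * x = 1 := hx.2
    calc s * x * s⁻¹ * (s * x * s⁻¹) = s * (x * x) * s⁻¹ := by group
      _ = 1 := by rw [hx2]; group
  have hC : ∀ s ∈ (S : Subgroup G), ∀ z : G, (∀ x ∈ E, z * x = x * z) →
      ∀ x ∈ E, (s * z * s⁻¹) * x = x * (s * z * s⁻¹) := by
    intro s hs z hz x hx
    have h1 := hz _ (hsE s⁻¹ ((S : Subgroup G).inv_mem hs) x hx)
    have h2 : z * (s⁻¹ * x * s) = (s⁻¹ * x * s) * z := by
      simpa using h1
    calc (s * z * s⁻¹) * x = s * (z * (s⁻¹ * x * s)) * s⁻¹ := by group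
      _ = s * ((s⁻¹ * x * s) * z) * s⁻¹ := by rw [h2]
      _ = _ := by group
  let K : Subgroup G :=
    { carrier := {x | ∃ z : G, (∀ y ∈ E, z * y = y * z) ∧ ∃ s ∈ (S : Subgroup G), x = z * s}
      one_mem' := ⟨1, by simp, 1, (S : Subgroup G).one_mem, by simp⟩
      mul_mem' := by
        rintro _ _ ⟨z, hz, s, hs, rfl⟩ ⟨z', hz', s', hs', rfl⟩
        refine ⟨z * (s * z' * s⁻¹), ?_, s * s', (S : Subgroup G).mul_mem hs hs', by group⟩
        intro y hy
        have h1 := hC s hs z' hz' y hy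
        calc z * (s * z' * s⁻¹) * y = z * ((s * z' * s⁻¹) * y) := by group
          _ = z * (y * (s * z' * s⁻¹)) := by rw [h1]
          _ = (z * y) * (s * z' * s⁻¹) := by group
          _ = (y * z) * (s * z' * s⁻¹) := by rw [hz y hy]
          _ = _ := by group
      inv_mem' := by
        rintro _ ⟨z, hz, s, hs, rfl⟩
        refine ⟨s⁻¹ * z⁻¹ * s, ?_, s⁻¹, (S : Subgroup G).inv_mem hs, by group⟩
        have hzi : ∀ y ∈ E, z⁻¹ * y = y * z⁻¹ := by
          intro y hy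
          have h1 := hz y hy
          calc z⁻¹ * y = z⁻¹ * (y * z) * z⁻¹ := by group
            _ = z⁻¹ * (z * y) * z⁻¹ := by rw [h1]
            _ = _ := by group
        have h1 := hC s⁻¹ ((S : Subgroup G).inv_mem hs) z⁻¹ hzi
        simpa using h1 }
  have hSK : (S : Subgroup G) ≤ K := fun s hs => ⟨1, by simp, s, hs, by simp⟩
  have hcK : ∀ s ∈ (S : Subgroup G), c s ∈ K := by
    intro s hs
    refine ⟨c s * s⁻¹, ?_, s, hs, by group⟩
    intro x hx
    have h1 : c (s⁻¹ * x * s) = s⁻¹ * x * s := by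
      have h2 := hsE s⁻¹ ((S : Subgroup G).inv_mem hs) x hx
      have h3 : s⁻¹ * x * s⁻¹⁻¹ = s⁻¹ * x * s := by group
      rw [h3] at h2
      exact hcf _ h2
    rw [map_mul, map_mul, map_inv, hcf x hx] at h1
    have h2 : x * (c s) = (c s) * (s⁻¹ * x * s) := by
      rw [← h1]
      group
    calc c s * s⁻¹ * x = (c s) * (s⁻¹ * x * s) * s⁻¹ := by group
      _ = x * (c s) * s⁻¹ := by rw [h2]
      _ = _ := by group
  let S₁ : Sylow 2 G := c • S
  have hmemS₁ : ∀ y : G, y ∈ (S₁ : Subgroup G) ↔ c⁻¹ y ∈ (S : Subgroup G) := by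
    intro y
    rw [Sylow.pointwise_smul_def, Subgroup.mem_pointwise_smul_iff_inv_smul_mem]
    rfl
  have hS₁K : (S₁ : Subgroup G) ≤ K := by
    intro y hy
    have h1 := hcK _ ((hmemS₁ y).1 hy)
    have h2 : c (c⁻¹ y) = y := by simp
    rwa [h2] at h1
  obtain ⟨k, hk⟩ := MulAction.exists_smul_eq K (S.subtype hSK) (S₁.subtype hS₁K)
  obtain ⟨z, hz, s₀, hs₀, hkz⟩ := k.2
  refine ⟨z, hz, mem_stabAut_of_le _ _ ?_⟩
  intro x hx
  have h1 : c x ∈ (S₁ : Subgroup G) := by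
    rw [hmemS₁]
    have h2 : c⁻¹ (c x) = x := by simp
    rwa [h2]
  have h2 : (⟨c x, hS₁K h1⟩ : K) ∈ ((S₁.subtype hS₁K : Sylow 2 K) : Subgroup K) := h1
  rw [← hk, Sylow.smul_def, Sylow.pointwise_smul_def,
    Subgroup.mem_pointwise_smul_iff_inv_smul_mem] at h2
  have h3 : ((MulAut.conj k)⁻¹ • (⟨c x, hS₁K h1⟩ : K) : K) = k⁻¹ * ⟨c x, hS₁K h1⟩ * k := by
    rw [MulAut.smul_def, MulAut.conj_inv_apply]
  rw [h3] at h2
  have h4 : (k : G)⁻¹ * c x * k ∈ (S : Subgroup G) := h2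
  rw [hkz] at h4
  have h5 := (S : Subgroup G).mul_mem ((S : Subgroup G).mul_mem hs₀ h4) ((S : Subgroup G).inv_mem hs₀)
  have h6 : ((MulAut.conj z)⁻¹ * c) x = s₀ * ((z * s₀)⁻¹ * c x * (z * s₀)) * s₀⁻¹ := by
    rw [MulAut.mul_apply, MulAut.conj_inv_apply]
    group
  rw [h6]
  exact h5

/-- The automorphisms stabilizing `S` and fixing `Ω` pointwise form a solvable group. -/
theorem B_solvable (hFT : FT.{u}) (S : Sylow 2 G)
    {hc : ∀ x ∈ (S : Subgroup G), ∀ y ∈ (S : Subgroup G), x * x = 1 → y * y = 1 → x * y = y * x}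
    (hF : Group.IsSolvable (fixAut (S : Subgroup G))) :
    Group.IsSolvable ↥(stabAut (S : Subgroup G) ⊓ fixAut (Ohm (S : Subgroup G) hc)) := by
  classical
  let B₁ := stabAut (S : Subgroup G) ⊓ fixAut (Ohm (S : Subgroup G) hc)
  let f : B₁ →* stabAut (S : Subgroup G) := Subgroup.inclusion inf_le_left
  let ρ' : B₁ →* MulAut ↥(S : Subgroup G) := (restr (S : Subgroup G)).comp f
  let Q : Subgroup (MulAut ↥(S : Subgroup G)) :=
    { carrier := {α | ∀ x, x * x = 1 → α x = x}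
      one_mem' := fun x _ => rfl
      mul_mem' := by
        intro a b ha hb x hx
        show a (b x) = x
        rw [hb x hx, ha x hx]
      inv_mem' := by
        intro a ha x hx
        have h1 := ha x hx
        have h2 : a⁻¹ (a x) = x := by simp
        rwa [h1] at h2 }
  haveI hQ : Group.IsSolvable Q := solvable_of_fix hFT S.isPGroup' Q (fun φ hφ x hx => hφ x hx)
  have hrange : ρ'.range ≤ Q := by
    rintro _ ⟨y, rfl⟩ x hx
    apply Subtype.ext
    have h1 : (x : G) ∈ Ohm (S : Subgroup G) hc :=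
      ⟨x.2, congrArg Subtype.val hx⟩
    exact y.2.2 _ h1
  haveI h1 : Group.IsSolvable ρ'.range :=
    solvable_of_solvable_injective (f := Subgroup.inclusion hrange)
      (Subgroup.inclusion_injective hrange)
  haveI h2 : Group.IsSolvable ρ'.ker := by
    let g : ρ'.ker →* fixAut (S : Subgroup G) :=
      { toFun := fun x => ⟨x.1.1, (mem_ker_restr (φ := f x.1)).1 x.2⟩
        map_one' := rfl
        map_mul' := fun _ _ => rfl }
    refine solvable_of_solvable_injective (f := g) ?_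
    intro x y hxy
    have h3 : x.1.1 = y.1.1 := congrArg (fun w : fixAut (S : Subgroup G) => (w : MulAut G)) hxy
    exact Subtype.ext (Subtype.ext h3)
  refine Group.isSolvable_of_ker_le_range ρ'.ker.subtype ρ'.rangeRestrict ?_
  intro x hx
  have h3 : ρ' x = 1 := congrArg Subtype.val hx
  exact ⟨⟨x, h3⟩, rfl⟩

/-- **Case (c)**. -/
theorem case_c (hFT : FT.{u}) (S : Sylow 2 G)
    (hc : ∀ x ∈ (S : Subgroup G), ∀ y ∈ (S : Subgroup G), x * x = 1 → y * y = 1 → x * y = y * x)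
    (hF : Group.IsSolvable (fixAut (S : Subgroup G)))
    (htr : ∀ x ∈ (S : Subgroup G), ∀ y ∈ (S : Subgroup G), x * x = 1 → y * y = 1 → x ≠ 1 → y ≠ 1 →
      ∃ g : G, g * x * g⁻¹ = y) : Group.IsSolvable (Out G) := by
  classical
  haveI : Finite (MulAut G) :=
    Finite.of_injective (fun φ : MulAut G => (φ : G → G)) DFunLike.coe_injective
  let E := Ohm (S : Subgroup G) hc
  let W := stabAut E
  let ρ : W →* MulAut E := restr E
  haveI hfinAE : Finite (MulAut E) :=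
    Finite.of_injective (fun φ : MulAut E => (φ : E → E)) DFunLike.coe_injective
  let L₀ : Subgroup (MulAut E) := ((Inn G).comap W.subtype).map ρ
  have hconjW : ∀ h ∈ Subgroup.normalizer (E : Set G), MulAut.conj h ∈ W := by
    intro h hh
    refine mem_stabAut_of_le _ _ ?_
    intro x hx
    exact (Subgroup.mem_normalizer_iff.1 hh x).1 hx
  have htrans : ∀ x y : E, x ≠ 1 → y ≠ 1 → ∃ ℓ ∈ L₀, ℓ x = y := by
    intro x y hx hy
    have hx1 : (x : G) ≠ 1 := fun h => hx (Subtype.ext h)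
    have hy1 : (y : G) ≠ 1 := fun h => hy (Subtype.ext h)
    obtain ⟨g, hg⟩ := htr x x.2.1 y y.2.1 x.2.2 y.2.2 hx1 hy1
    obtain ⟨h, hh, hhx⟩ := exists_normalizer_conj S x.2 y.2 hg
    refine ⟨ρ ⟨MulAut.conj h, hconjW h hh⟩, ⟨⟨MulAut.conj h, hconjW h hh⟩, ⟨h, rfl⟩, rfl⟩, ?_⟩
    apply Subtype.ext
    exact hhx
  have hnorm : ∀ ψ : W, ρ ψ ∈ Subgroup.normalizer (L₀ : Set (MulAut E)) := by
    intro ψ
    refine Subgroup.mem_normalizer_fintype ?_
    rintro _ ⟨u, hu, rfl⟩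
    refine ⟨ψ * u * ψ⁻¹, ?_, by rw [map_mul, map_mul, map_inv]⟩
    have h1 : ((ψ : MulAut G) * (u : MulAut G) * (ψ : MulAut G)⁻¹) ∈ Inn G :=
      (innNormal G).conj_mem _ hu _
    exact h1
  obtain ⟨R, hRsol, hfr⟩ := lemmaZ (Y := E) (fun x y => Subtype.ext (hc x x.2.1 y y.2.1 x.2.2 y.2.2))
    (fun x => Subtype.ext x.2.2) L₀ htrans
  let N' : Subgroup W := (Subgroup.normalizer (R : Set (MulAut E))).comap ρ
  let W₂ : Subgroup (MulAut G) := N'.map W.subtype
  have hSW : stabAut (S : Subgroup G) ≤ W := by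
    intro φ hφ
    refine mem_stabAut_of_le _ _ ?_
    intro x hx
    refine ⟨(hφ x).2 hx.1, ?_⟩
    have hx2 : x * x = 1 := hx.2
    rw [← map_mul, hx2, map_one]
  have hsur : ∀ φ : MulAut G, ∃ g : G, (MulAut.conj g)⁻¹ * φ ∈ W₂ := by
    intro φ
    obtain ⟨g₁, hg₁⟩ := exists_conj_stab S φ
    let ψ : W := ⟨(MulAut.conj g₁)⁻¹ * φ, hSW hg₁⟩
    obtain ⟨ℓ₀, ⟨u, hu, rfl⟩, hℓ⟩ := hfr (ρ ψ) (hnorm ψ)
    obtain ⟨h, hh⟩ := hu
    refine ⟨g₁ * h, ?_⟩
    have hu' : (u : MulAut G) = MulAut.conj h := hh.symm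
    refine ⟨u⁻¹ * ψ, ?_, ?_⟩
    · show ρ (u⁻¹ * ψ) ∈ Subgroup.normalizer (R : Set (MulAut E))
      rw [map_mul, map_inv]
      exact hℓ
    · show ((u : MulAut G))⁻¹ * ((MulAut.conj g₁)⁻¹ * φ) = (MulAut.conj (g₁ * h))⁻¹ * φ
      rw [hu', map_mul, mul_inv_rev, mul_assoc]
  have hW₂W : W₂ ≤ W := by
    rintro _ ⟨x, _, rfl⟩
    exact x.2
  let ρ₂ : W₂ →* MulAut E := ρ.comp (Subgroup.inclusion hW₂W)
  have h1 : Group.IsSolvable ρ₂.range := by
    have hle : ρ₂.range ≤ Subgroup.normalizer (R : Set (MulAut E)) := by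
      rintro _ ⟨⟨x, y, hy, rfl⟩, rfl⟩
      have h3 : Subgroup.inclusion hW₂W ⟨_, y, hy, rfl⟩ = y := Subtype.ext rfl
      show ρ (Subgroup.inclusion hW₂W ⟨_, y, hy, rfl⟩) ∈ Subgroup.normalizer (R : Set (MulAut E))
      rw [h3]
      exact hy
    exact solvable_of_solvable_injective (f := Subgroup.inclusion hle)
      (Subgroup.inclusion_injective hle)
  have h2 : Group.IsSolvable (ρ₂.ker.map (piOf W₂)) := by
    let B₁ := stabAut (S : Subgroup G) ⊓ fixAut (Ohm (S : Subgroup G) hc)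
    haveI hB : Group.IsSolvable B₁ := B_solvable hFT S hF
    let π₀ : MulAut G →* Out G := QuotientGroup.mk' (Inn G)
    have hK : Group.IsSolvable (B₁.map π₀) := map_solvable π₀ B₁ hB
    have hle : ρ₂.ker.map (piOf W₂) ≤ B₁.map π₀ := by
      rintro _ ⟨x, hx, rfl⟩
      have h3 : (x : MulAut G) ∈ fixAut E := by
        have h4 : Subgroup.inclusion hW₂W x ∈ (restr E).ker := hx
        exact (mem_ker_restr).1 h4
      obtain ⟨z, hz, hzs⟩ := fix_to_stab S (x : MulAut G) h3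
      refine ⟨(MulAut.conj z)⁻¹ * x, ⟨hzs, ?_⟩, ?_⟩
      · intro y hy
        show (MulAut.conj z)⁻¹ ((x : MulAut G) y) = y
        rw [h3 y hy, MulAut.conj_inv_apply]
        have := hz y hy
        calc z⁻¹ * y * z = z⁻¹ * (y * z) := by group
          _ = z⁻¹ * (z * y) := by rw [this]
          _ = y := by group
      · show (((MulAut.conj z)⁻¹ * (x : MulAut G) : MulAut G) : Out G) = ((x : MulAut G) : Out G)
        rw [QuotientGroup.eq]
        have h4 : ((MulAut.conj z)⁻¹ * (x : MulAut G))⁻¹ * (x : MulAut G) =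
            (x : MulAut G)⁻¹ * MulAut.conj z * (x : MulAut G) := by group
        rw [h4]
        have h5 := (innNormal G).conj_mem _ (conj_mem_inn z) (x : MulAut G)⁻¹
        simpa using h5
    exact solvable_of_solvable_injective (f := Subgroup.inclusion hle)
      (Subgroup.inclusion_injective hle)
  exact solvable_of_two (piOf W₂) (piOf_surjective hsur) ρ₂ h1 h2

end caseC

section caseC2


/-- The main theorem of this file, given the odd order theorem. -/
theorem main (hFT : FT.{u}) [IsSimpleGroup G] (S : Sylow 2 G) (hS1 : (S : Subgroup G) ≠ ⊥)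
    (h : (∃ a b : ↥S, Subgroup.closure ({a, b} : Set ↥S) = ⊤) ∨
      ((∃ a b c : ↥S, Subgroup.closure ({a, b, c} : Set ↥S) = ⊤) ∧
        ∃ g ∈ Subgroup.normalizer ((S : Subgroup G) : Set G), Odd (orderOf g) ∧
          g ∉ Subgroup.centralizer ((S : Subgroup G) : Set G)) ∨
      ((∀ s ∈ S, ∀ t ∈ S, orderOf s = 2 → orderOf t = 2 → s * t = t * s) ∧
        (∀ s ∈ S, ∀ t ∈ S, orderOf s = 2 → orderOf t = 2 → ∃ g : G, g * s * g⁻¹ = t))) :
    Group.IsSolvable (Out G) := by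
  have hF := fixAut_solvable hFT (no_odd_normal S hS1) S
  rcases h with ⟨a, b, hab⟩ | ⟨⟨a, b, c, habc⟩, g, hg, hodd, hgc⟩ | ⟨hcomm, hconj⟩
  · exact case_a S hF a b hab
  · exact case_b S hF a b c habc g hg hodd hgc
  · have hord : ∀ x : G, x * x = 1 → x ≠ 1 → orderOf x = 2 := by
      intro x hx hx1
      haveI : Fact (Nat.Prime 2) := ⟨Nat.prime_two⟩
      exact orderOf_eq_prime (by rw [pow_two]; exact hx) hx1
    refine case_c hFT S ?_ hF ?_
    · intro x hx y hy hx2 hy2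
      by_cases hx1 : x = 1
      · simp [hx1]
      by_cases hy1 : y = 1
      · simp [hy1]
      exact hcomm x hx y hy (hord x hx2 hx1) (hord y hy2 hy1)
    · intro x hx y hy hx2 hy2 hx1 hy1
      exact hconj x hx y hy (hord x hx2 hx1) (hord y hy2 hy1)

end caseC2

end Cfsg.Agent.Lib.OutSolv.Main
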